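import Mathlib

/-! Small linear algebra lemmas for closures of affine groups. -/

set_option autoImplicit false

namespace Cfsg.Agent.FG

variable {K U V : Type*} [Field K] [AddCommGroup U] [Module K U] [AddCommGroup V] [Module K V]

theorem exists_equiv_of_ker_eq [FiniteDimensional K V] (f f' : U →ₗ[K] V) (h : LinearMap.ker f = LinearMap.ker f') :
    ∃ A : V ≃ₗ[K] V, ∀ x, A (f x) = f' x := by
  obtain ⟨A, hA⟩ := Submodule.exists_linearEquiv_restrict_eq
    (f.quotKerEquivRange.symm ≪≫ₗ (Submodule.quotEquivOfEq _ _ h) ≪≫ₗ f'.quotKerEquivRange)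
  refine ⟨A, fun x => ?_⟩
  have := hA ⟨f x, x, rfl⟩
  rw [← this]
  have h2 := f.quotKerEquivRange_symm_apply_image x ⟨x, rfl⟩
  simp only [LinearEquiv.trans_apply]
  rw [h2]
  rfl

theorem exists_det_fix [FiniteDimensional K V] (W : Submodule K V) (hW : W ≠ ⊤) {c : K} (hc : c ≠ 0) :
    ∃ B : V ≃ₗ[K] V, LinearMap.det (B : V →ₗ[K] V) = c ∧ ∀ w ∈ W, B w = w := by
  obtain ⟨f, hf, hWf⟩ := W.exists_le_ker_of_lt_top (lt_top_iff_ne_top.2 hW)
  obtain ⟨v, hv⟩ : ∃ v, f v ≠ 0 := by
    by_contra h; push Not at h; exact hf (LinearMap.ext h)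
  have h1 : 1 + f (((c - 1) / f v) • v) = c := by
    rw [map_smul, smul_eq_mul, div_mul_cancel₀ _ hv]; ring
  refine ⟨LinearEquiv.dilatransvection (f := f) (v := ((c - 1) / f v) • v) (by rw [h1]; exact hc.isUnit), ?_, ?_⟩
  · rw [LinearEquiv.dilatransvection.coe_toLinearMap, LinearMap.transvection.det, h1]
  · intro w hw
    rw [LinearEquiv.dilatransvection.apply, LinearMap.mem_ker.1 (hWf hw), zero_smul, add_zero]

/-- a permutation agreeing with an affine map on every triple is affine (characteristic not two) -/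
theorem affine_of_three (h2 : (2 : K) ≠ 0) (σ : Equiv.Perm V)
    (h : ∀ t : Fin 3 → V, ∃ (A : V ≃ₗ[K] V) (b : V), ∀ i, σ (t i) = A (t i) + b) :
    ∃ (A : V ≃ₗ[K] V) (b : V), ∀ x, σ x = A x + b := by
  have key : ∀ (c : K) (x y : V), σ ((1 - c) • x + c • y) = (1 - c) • σ x + c • σ y := by
    intro c x y
    obtain ⟨A, b, hA⟩ := h ![x, y, (1 - c) • x + c • y]
    have h0 := hA 0
    have h1 := hA 1
    have h2 := hA 2
    simp only [Matrix.cons_val_zero, Matrix.cons_val_one, Matrix.cons_val] at h0 h1 h2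
    rw [h0, h1, h2, map_add, map_smul, map_smul]
    module
  have hs : ∀ (c : K) (y : V), σ (c • y) - σ 0 = c • (σ y - σ 0) := by
    intro c y
    have := key c 0 y
    rw [smul_zero, zero_add] at this
    rw [this]; module
  let f : V →ₗ[K] V :=
    { toFun := fun x => σ x - σ 0
      map_add' := fun x y => by
        have h3 : x + y = (2 : K) • ((1 - (2 : K)⁻¹) • x + (2 : K)⁻¹ • y) := by
          rw [smul_add, smul_smul, smul_smul, mul_sub, mul_inv_cancel₀ h2]
          norm_num
        rw [h3, hs, key, smul_sub, smul_add, smul_smul, smul_smul, mul_sub, mul_inv_cancel₀ h2]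
        module
      map_smul' := hs }
  refine ⟨LinearEquiv.ofBijective f ⟨fun x y e => σ.injective (sub_left_injective e), fun y => ⟨σ.symm (y + σ 0), ?_⟩⟩,
    σ 0, fun x => ?_⟩
  · simp [f]
  · show σ x = σ x - σ 0 + σ 0
    rw [sub_add_cancel]

end Cfsg.Agent.FG
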