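import Cfsg.Agent.FG.Spec
import Cfsg.Agent.Known.Cover
import Cfsg.Agent.Spor.MatRep
import Cfsg.Agent.Comp.Class

/-! Prime graphs of affine groups (helper3): `Aff.graph` (the prime graph of `V ⋊ C` is that of `C` when the elements of
the missing prime orders act without fixed points), `fpf_of_sylow`, `exists_act_of_lifts` (a module from coded
matrices satisfying the relators), `fpf_of_chk`, `exists_big_graph`. -/

set_option autoImplicit false

namespace Cfsg.Agent.FG

open Cfsg.Agent.Spor Cfsg.Agent.Known Matrix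

section
variable {C V : Type*} [Group C] [AddCommGroup V] [DistribMulAction C V]

theorem Aff.mul_mem_spec {r : ℕ} (hr : r.Prime) (hV : ∀ w : V, r • w = 0)
    (hq : ∀ q : ℕ, q.Prime → q ≠ r → q * r ∈ Spec C ∨ ∀ c : C, orderOf c = q → ∀ w : V, c • w = w → w = 0)
    {p q : ℕ} (hp : p.Prime) (hq' : q.Prime) (hpq : p ≠ q) (h : p * q ∈ Spec (Aff C V)) : p * q ∈ Spec C := by
  obtain ⟨x, hx⟩ := h
  have key : ∀ {a b : ℕ}, a.Prime → b.Prime → a ≠ b → orderOf x = a * b → orderOf x.c = a → a * b ∈ Spec C := by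
    intro a b ha hb hab hx hc
    have h1 : a * b ∣ a * r := hx ▸ orderOf_dvd_of_pow_eq_one (Aff.pow_mul_eq_one x (hc ▸ pow_orderOf_eq_one _) hV)
    obtain rfl : b = r := (Nat.prime_dvd_prime_iff_eq hb hr).1 (Nat.dvd_of_mul_dvd_mul_left ha.pos h1)
    rcases hq a ha hab with h | h
    · exact h
    have h2 : a * b ∣ a * 1 := by
      rw [mul_one, ← hx]
      exact orderOf_dvd_of_pow_eq_one (Aff.pow_eq_one x (hc ▸ pow_orderOf_eq_one _) (h _ hc))
    exact absurd (Nat.dvd_one.1 (Nat.dvd_of_mul_dvd_mul_left ha.pos h2)) hb.ne_one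
  have hd : orderOf x.c ∣ p * q := hx ▸ orderOf_map_dvd (Aff.lin : Aff C V →* C) x
  obtain ⟨a, b, ha, hb, e⟩ := (Nat.dvd_mul).1 hd
  rcases (Nat.dvd_prime hp).1 ha with rfl | rfl <;> rcases (Nat.dvd_prime hq').1 hb with rfl | rfl
  · have h1 : p * q ∣ r ^ 1 := by
      rw [← hx, pow_one, ← one_mul r]
      exact orderOf_dvd_of_pow_eq_one (Aff.pow_mul_eq_one x (by rw [pow_one, ← orderOf_eq_one_iff, ← e]) hV)
    exact absurd h1 (not_mul_dvd_pow hp hq' hpq hr)
  · rw [mul_comm]; exact key hq' hp hpq.symm (by rw [hx, mul_comm]) (by rw [← e, one_mul])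
  · exact key hp hq' hpq hx (by rw [← e, mul_one])
  · exact ⟨x.c, e.symm⟩

/-- groups of unbounded order with the same prime graph. -/
theorem exists_big_graph [Finite C] [Finite V] [Nontrivial V] {r : ℕ} (hr : r.Prime) (hV : ∀ w : V, r • w = 0)
    (hC : r ∣ Nat.card C)
    (hq : ∀ q : ℕ, q.Prime → q ≠ r → q * r ∈ Spec C ∨ ∀ c : C, orderOf c = q → ∀ w : V, c • w = w → w = 0) (N : ℕ) :
    ∃ (H : Type) (_ : Group H) (_ : Finite H), N < Nat.card H ∧
      ((∀ p : ℕ, p.Prime → (p ∣ Nat.card C ↔ p ∣ Nat.card H)) ∧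
      (∀ p q : ℕ, p.Prime → q.Prime → p ≠ q → ((∃ g : C, orderOf g = p * q) ↔ (∃ g : H, orderOf g = p * q)))) := by
  obtain ⟨H, _, _, hN, hS⟩ := Aff.exists_big (C := C) hr hV N
  refine ⟨H, inferInstance, inferInstance, by rwa [Nat.card_eq_fintype_card], fun p hp => ?_, fun p q hp hq' hpq => ?_⟩
  · rw [prime_dvd_card_iff (G := H) hp, hS, ← prime_dvd_card_iff hp, Aff.card]
    refine ⟨fun h => h.mul_left _, fun h => ((Nat.Prime.dvd_mul hp).1 h).elim (fun h => ?_) id⟩
    have : p ∈ Spec (Multiplicative V) := (prime_dvd_card_iff hp).1 h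
    rw [spec_add hr hV] at this
    rwa [(Nat.prime_dvd_prime_iff_eq hp hr).1 this]
  · change p * q ∈ Spec C ↔ p * q ∈ Spec H
    rw [hS]
    exact ⟨fun h => spec_mono _ Aff.inr_injective h, Aff.mul_mem_spec hr hV hq hp hq' hpq⟩

theorem fpf_of_sylow [Finite C] {q : ℕ} (hq : q.Prime) (h2 : ¬ q ^ 2 ∣ Nat.card C) {x : C} (hx : orderOf x = q)
    (h : ∀ w : V, x • w = w → w = 0) (c : C) (hc : orderOf c = q) (w : V) (hw : c • w = w) : w = 0 := by
  obtain ⟨g, -, hg⟩ := Comp.exists_conj_mem_sylow (K := ⊤) (P := Subgroup.zpowers x) (k := 1) (j := 1) hq le_top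
    (by rw [Nat.card_zpowers, hx, pow_one]) Subgroup.card_top h2 (Subgroup.mem_top c)
    (by rw [pow_one, ← hc, pow_orderOf_eq_one])
  have e : Subgroup.zpowers (g * c * g⁻¹) = Subgroup.zpowers x :=
    Subgroup.eq_of_le_of_card_ge (Subgroup.zpowers_le.2 hg) (by
      rw [Nat.card_zpowers, Nat.card_zpowers, hx, ← hc, ← MulAut.conj_apply, MulEquiv.orderOf_eq])
  have h1 : Subgroup.zpowers (g * c * g⁻¹) ≤ MulAction.stabilizer C (g • w) :=
    Subgroup.zpowers_le.2 (by rw [MulAction.mem_stabilizer_iff, smul_smul, inv_mul_cancel_right, mul_smul, hw])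
  exact (smul_eq_zero_iff_eq g).1 (h _ (h1 (e ▸ Subgroup.mem_zpowers x)))

end

variable {w m p K nl : ℕ} {As : List (List ℕ)}

theorem exists_hom_of_lifts {G : Type} [Group G] {g : ℕ → G} {rels : List (List ℕ)} (hL : Lifts g nl rels)
    (h : okM w m p K As = true) (hl : chkLet (List.range nl) rels = true) (hc : chkIdM w m p K As rels = true)
    (hw : ((List.range nl).all fun x => rels.any fun r => r.head? == some x) = true) :
    ∃ ψ : G →* Matrix (Fin K) (Fin K) (ZMod p), ∀ r, (∀ x ∈ r, x < nl) → ψ (ev g r) = ev (MM w p K As) r := by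
  have mr : MatRep (MM w p K As) w m p K As nl (MonoidHom.id _) := ⟨h, Function.injective_id, fun _ _ => rfl⟩
  have hu := mr.isUnit rels hl hc hw
  obtain ⟨ψ, hψ⟩ := hL _ _ ((mr.lift (Units.coeHom _) Units.val_injective hu).ev_eq_one hl hc)
  refine ⟨(Units.coeHom _).comp ψ, fun r hr => ?_⟩
  rw [Spor.map_ev]
  exact ev_congr fun x hx => by rw [MonoidHom.comp_apply, hψ x (hr x hx), map_liftG (hr x hx) (hu x (hr x hx))]

/-- the module of a matrix representation. -/
@[reducible] def matAct {G R : Type*} [Monoid G] [CommRing R] (ψ : G →* Matrix (Fin K) (Fin K) R) :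
    DistribMulAction G (Fin K → R) where
  smul c v := ψ c *ᵥ v
  one_smul v := by change ψ 1 *ᵥ v = v; rw [map_one, one_mulVec]
  mul_smul a b v := by change ψ (a * b) *ᵥ v = ψ a *ᵥ (ψ b *ᵥ v); rw [map_mul, mulVec_mulVec]
  smul_zero a := mulVec_zero _
  smul_add a := mulVec_add _

theorem fpf_of_chk (h : okM w m p K As = true) {r : List ℕ} {c d : ℕ} (h1 : chkEqM w m p K As [(r ++ [c], [d])] = true)
    (h2 : MM w p K As d = MM w p K As c + 1) (v : Fin K → ZMod p) (hv : ev (MM w p K As) r *ᵥ v = v) :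
    v = 0 := by
  have e := ev_MM_eq h h1 _ List.mem_cons_self
  simp only [ev_append, ev_cons, ev_nil, one_mul] at e
  have := congrArg (· *ᵥ v) (e.trans h2)
  simp only [← mulVec_mulVec, hv, add_mulVec, one_mulVec] at this
  exact left_eq_add.1 this

end Cfsg.Agent.FG
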