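import Cfsg.Agent.S3909
import Cfsg.Agent.Solv.SchurZassenhaus
import Cfsg.Agent.Solv.MinNormal
import Cfsg.Agent.Solv.Fitting
import Cfsg.Agent.PLocal.Basic
import Cfsg.Agent.Transfer.POdd

/-! Groups whose abelian subgroups of equal order are conjugate: quotients. (helper3) -/

set_option autoImplicit false

namespace Cfsg.Agent.FG.BGrp

open Subgroup Cfsg.Agent.Loc

universe u

variable {G : Type*} [Group G]

/-- abelian subgroups of equal order are conjugate. -/
def BG (G : Type*) [Group G] : Prop :=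
  ∀ A B : Subgroup G, IsMulCommutative ↥A → IsMulCommutative ↥B → Nat.card ↥A = Nat.card ↥B →
    ∃ g : G, B = A.map (MulAut.conj g).toMonoidHom

theorem rk1_or_exp [Finite G] (hB : BG G) {p : ℕ} [hp : Fact p.Prime] {P : Subgroup G}
    (hP : IsPGroup p P) : Rk1 p P ∨ ∀ x ∈ P, x ^ p = 1 := by
  rcases rk1_or_exists hP with h | ⟨A, hA, hE, hn⟩
  · exact Or.inl h
  right
  intro x hx
  obtain ⟨k, hk⟩ := exists_orderOf_of_isPGroup hP hx
  rcases k with _ | _ | k
  · rw [pow_zero, orderOf_eq_one_iff] at hk; rw [hk, one_pow]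
  · rw [← orderOf_dvd_iff_pow_eq_one, hk]; simp
  exfalso
  obtain ⟨j, hj⟩ := IsPGroup.iff_card.1 (hP.to_le hA)
  have hj2 : 2 ≤ j := by
    by_contra h
    refine hn (isCyclic_of_card_dvd_prime (p := p) ?_)
    rw [hj]
    calc p ^ j ∣ p ^ 1 := pow_dvd_pow _ (by omega)
      _ = p := pow_one p
  obtain ⟨E, hE2⟩ := Sylow.exists_subgroup_card_pow_prime_of_le_card hp.out (hP.to_le hA) (n := 2)
    (by rw [hj]; exact Nat.pow_le_pow_right hp.out.pos hj2)
  have h1 : orderOf (x ^ p ^ k) = p ^ 2 := by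
    rw [orderOf_pow_of_dvd (pow_ne_zero _ hp.out.ne_zero) (by rw [hk]; exact pow_dvd_pow _ (by omega)),
      hk, show k + 1 + 1 = k + 2 by omega, pow_add, Nat.mul_div_cancel_left _ (pow_pos hp.out.pos k)]
  obtain ⟨g, hg⟩ := hB (E.map A.subtype) (zpowers (x ^ p ^ k))
    (isElementaryAbelian_of_le hE (map_subtype_le _)).1 inferInstance
    (by rw [card_map_subtype, hE2, Nat.card_zpowers, h1])
  obtain ⟨y, hy, hy2⟩ := mem_cj_iff_exists.1 (show x ^ p ^ k ∈ cj g (E.map A.subtype) from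
    hg ▸ mem_zpowers (x ^ p ^ k))
  have h3 : (x ^ p ^ k) ^ p = 1 := by
    rw [← hy2, conj_pow, hE.2 y (map_subtype_le _ hy), mul_one, mul_inv_cancel]
  have h4 := Nat.le_of_dvd hp.out.pos (h1 ▸ orderOf_dvd_of_pow_eq_one h3)
  have h5 := hp.out.one_lt
  nlinarith

theorem dec [Finite G] {H : Type*} [Group H] (f : G →* H) {p : ℕ} [Fact p.Prime]
    (hM : IsPGroup p f.ker) (A : Subgroup H) (hA : IsMulCommutative A) :
    ∃ P K : Subgroup G, f.ker ≤ P ∧ SylIn p P (A.comap f) ∧ IsMulCommutative K ∧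
      P ⊔ K = A.comap f ∧ Nat.card K = P.relIndex (A.comap f) ∧
      ∀ x ∈ P, ∀ y ∈ K, x⁻¹ * y * x * y⁻¹ ∈ f.ker := by
  have hc : ∀ x ∈ A.comap f, ∀ y ∈ A.comap f, x⁻¹ * y * x * y⁻¹ ∈ f.ker := fun x hx y hy => by
    have : f y * f x = f x * f y := congrArg Subtype.val (hA.is_comm.comm ⟨_, hy⟩ ⟨_, hx⟩)
    rw [MonoidHom.mem_ker, map_mul, map_mul, map_mul, mul_assoc _ (f y), this]; simp
  obtain ⟨P, hP, hle⟩ := exists_sylIn_ge (Q := f.ker) (H := A.comap f) (ker_le_comap f A) hM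
  have hn : A.comap f ≤ normalizer (P : Set G) := le_normalizer_of_cj_le fun g hg =>
    cj_le_iff_forall.2 fun x hx => by
      have := P.mul_mem (hle (hc g⁻¹ (inv_mem hg) x (hP.le hx))) hx
      simpa using this
  obtain ⟨K, h1, h2, h3, h4⟩ := Solv.exists_complement_in hP.le hn (by
    rw [hP.card_eq_pow]
    exact Nat.Coprime.pow_left _ ((Nat.Prime.coprime_iff_not_dvd Fact.out).2 hP.not_dvd_relIndex))
  refine ⟨P, K, hle, hP, ⟨⟨fun x y => Subtype.ext ?_⟩⟩, h2, h4, fun x hx y hy =>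
    hc x (hP.le hx) y (h1 hy)⟩
  have h5 : (y : G)⁻¹ * x * y * (x : G)⁻¹ ∈ P ⊓ K := ⟨hle (hc y (h1 y.2) x (h1 x.2)),
    K.mul_mem (K.mul_mem (K.mul_mem (K.inv_mem y.2) x.2) y.2) (K.inv_mem x.2)⟩
  rw [h3, mem_bot] at h5
  show (x : G) * y = y * x
  calc (x : G) * y = y * ((y : G)⁻¹ * x * y * (x : G)⁻¹) * x := by group
    _ = _ := by rw [h5, mul_one]

theorem quot [Finite G] (hB : BG G) {H : Type*} [Group H] (f : G →* H) (hf : Function.Surjective f)
    {p : ℕ} [Fact p.Prime] (hM : IsPGroup p f.ker)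
    (h1 : ∀ x : G, x ≠ 1 → IsPGroup p (zpowers x) → (∃ y, IsPGroup p (zpowers y) ∧ y ∉ f.ker) →
      f.ker ≤ zpowers x)
    (h2 : ∀ P Q : Subgroup G, IsPGroup p P → IsPGroup p Q → Nat.card P = Nat.card Q → f.ker < P →
      (IsMulCommutative P ∧ IsMulCommutative Q) ∨ (SylIn p P ⊤ ∧ SylIn p Q ⊤)) : BG H := by
  intro A B hA hB' hc
  obtain ⟨P, K, hle, hP, hK, hs, hcK, hcm⟩ := dec f hM A hA
  obtain ⟨Q, L, hle', hQ, hL, hs', hcL, hcm'⟩ := dec f hM B hB'
  have hr : ∀ X : Subgroup H, X ≤ f.range := fun X => by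
    rw [MonoidHom.range_eq_top.2 hf]; exact le_top
  have hcc : Nat.card (A.comap f) = Nat.card (B.comap f) := by
    rw [Solv.card_comap f (hr A), Solv.card_comap f (hr B), hc]
  have hPQ : Nat.card P = Nat.card Q := by rw [hP.card_eq_pow, hQ.card_eq_pow, hcc]
  have hKL : Nat.card K = Nat.card L := by
    have a1 := (P.subgroupOf (A.comap f)).index_mul_card
    have a2 := (Q.subgroupOf (B.comap f)).index_mul_card
    rw [card_subgroupOf hP.le] at a1
    rw [card_subgroupOf hQ.le, ← hcc, ← a1, ← hPQ] at a2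
    rw [hcK, hcL]
    exact (Nat.eq_of_mul_eq_mul_right Nat.card_pos a2).symm
  suffices ∃ g : G, cj g (P ⊔ K) = Q ⊔ L by
    obtain ⟨g, hg⟩ := this
    refine ⟨f g, ?_⟩
    rw [hs, hs'] at hg
    rw [← map_comap_eq_self_of_surjective hf B, ← hg, map_cj, map_comap_eq_self_of_surjective hf]
  obtain ⟨g, hg⟩ := hB K L hK hL hKL
  have hg' : cj g K = L := hg.symm
  rcases hle.eq_or_lt with h0 | h0
  · have h3 : f.ker = Q := eq_of_le_of_card_ge hle' (by rw [← hPQ, h0])
    exact ⟨g, by rw [← h0, ← h3, cj_sup, hg', cj_eq_of_normal]⟩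
  have cent : ∀ (P K : Subgroup G) (X : Subgroup G), f.ker < P → SylIn p P X →
      IsMulCommutative K → Nat.card K = P.relIndex X →
      (∀ x ∈ P, ∀ y ∈ K, x⁻¹ * y * x * y⁻¹ ∈ f.ker) → P ≤ centralizer (K : Set G) := by
    intro P K X h0 hP hK hcK hcm
    have hco : (Nat.card K).Coprime (Nat.card f.ker) := by
      obtain ⟨j, hj⟩ := IsPGroup.iff_card.1 hM
      rw [hj, hcK]
      exact Nat.Coprime.pow_right _
        ((Nat.Prime.coprime_iff_not_dvd Fact.out).2 hP.not_dvd_relIndex).symm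
    have key : ∀ x ∈ P, ∃ n ∈ f.ker, x * n ∈ centralizer (K : Set G) := fun x hx =>
      Solv.exists_mul_mem_centralizer (by rw [normalizer_eq_top]; exact le_top) hco
        (Or.inl (isSolvable_of_comm fun a b => hK.is_comm.comm a b)) (hcm x hx)
    obtain ⟨x, hx, hxn⟩ := SetLike.exists_of_lt h0
    obtain ⟨n, hn, hxc⟩ := key x hx
    have h3 : f.ker ≤ centralizer (K : Set G) :=
      (h1 (x * n) (fun h => hxn (by rw [eq_inv_of_mul_eq_one_left h]; exact inv_mem hn))
        (hP.pg.to_le (zpowers_le.2 (P.mul_mem hx (h0.le hn))))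
        ⟨x, hP.pg.to_le (zpowers_le.2 hx), hxn⟩).trans (zpowers_le.2 hxc)
    intro y hy
    obtain ⟨m, hm, hyc⟩ := key y hy
    exact (mul_mem_cancel_right (h3 hm)).1 hyc
  have h0' : f.ker < Q := lt_of_le_of_ne hle' fun h => h0.ne
    (eq_of_le_of_card_ge hle (by rw [hPQ, h]))
  have c1 := cent P K _ h0 hP hK hcK hcm
  have c2 := cent Q L _ h0' hQ hL hcL hcm'
  rcases h2 P Q hP.pg hQ.pg hPQ h0 with ⟨a, b⟩ | ⟨a, b⟩
  · obtain ⟨k, hk⟩ := hB (P ⊔ K) (Q ⊔ L) (PLocal.isMulCommutative_sup a hK c1)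
      (PLocal.isMulCommutative_sup b hL c2) (by rw [hs, hs', hcc])
    exact ⟨k, hk.symm⟩
  · have a' : SylIn p (cj g P) (centralizer (L : Set G)) := by
      refine ((a.conj g).mono ?_ (by rw [cj_top]; exact le_top))
      rw [← hg', ← cj_centralizer]; exact cj_mono g c1
    obtain ⟨c, hc1, hc2⟩ := a'.exists_conj (b.mono c2 le_top)
    exact ⟨c * g, by rw [← cj_cj, cj_sup, cj_sup, hc2, hg', cj_eq_of_mem_centralizer hc1]⟩

theorem quot_elem [Finite G] (hB : BG G) {H : Type*} [Group H] (f : G →* H)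
    (hf : Function.Surjective f) {p : ℕ} [hp : Fact p.Prime] (hE : IsElementaryAbelian p f.ker)
    (hne : f.ker ≠ ⊥)
    (h8 : ∀ (n : ℕ) (S : Sylow p G), p = 2 → IsEmpty (S ≃* QuaternionGroup (2 ^ (n + 2)))) :
    BG H := by
  have hM := isPGroup_of_isElementaryAbelian hE
  obtain ⟨t, ht⟩ := IsPGroup.iff_card.1 hM
  by_cases h2 : 2 ≤ t
  · have h3 : ∀ P : Subgroup G, IsPGroup p P → P ≤ f.ker := fun P hP => by
      obtain ⟨S, hS⟩ := hP.exists_le_sylow
      exact hS.trans ((S3909.result hB f.ker).2 p t h2 ht hE S).le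
    exact quot hB f hf hM (fun x _ _ ⟨y, a, b⟩ => absurd (h3 _ a (mem_zpowers y)) b)
      (fun P Q a _ _ b => absurd (h3 P a) b.not_ge)
  obtain ⟨m, hm, hmo⟩ := exists_orderOf_eq_of_dvd_card (p := p) (N := f.ker)
    (Solv.dvd_card_of_isPGroup hM hne)
  have hz : ∀ x : G, orderOf x = p → f.ker = zpowers x := fun x hx => by
    refine (eq_of_le_of_card_ge (zpowers_le.2 (S3909.mem_of hB _ x ⟨m, hm, by rw [hmo, hx]⟩)) ?_).symm
    rw [Nat.card_zpowers, hx, ht]
    calc p ^ t ≤ p ^ 1 := Nat.pow_le_pow_right hp.out.pos (by omega)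
      _ = p := pow_one p
  have hR : Rk1 p (⊤ : Subgroup G) := fun x _ y _ hx hy h1 => by
    by_cases hy1 : y = 1
    · rw [hy1]; exact one_mem _
    · rw [← hz x (orderOf_eq_prime hx h1), hz y (orderOf_eq_prime hy hy1)]; exact mem_zpowers y
  refine quot hB f hf hM (fun x h1 hx _ => ?_) (fun P Q a b c _ => ?_)
  · obtain ⟨y, hy, hyo⟩ := exists_orderOf_eq_of_dvd_card (p := p) (N := zpowers x)
      (Solv.dvd_card_of_isPGroup hx (by simpa using h1))
    rw [hz y hyo]; exact zpowers_le.2 hy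
  · obtain ⟨S⟩ : Nonempty (Sylow p G) := inferInstance
    rcases (hR.of_le (U := S) le_top).isCyclic_or_quaternion S.2 with h | ⟨rfl, n, hn, ⟨e⟩⟩
    · have : ∀ P : Subgroup G, IsPGroup p P → IsMulCommutative P := fun P hP => by
        obtain ⟨g, -, hg⟩ := (sylIn_top S).exists_conj_le le_top hP
        haveI : IsCyclic (cj g P) := isCyclic_of_le hg
        haveI : IsCyclic P := isCyclic_of_surjective _ (cjEquiv g P).symm.surjective
        infer_instance
      exact Or.inl ⟨this P a, this Q b⟩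
    · have hn1 : n = 1 := by
        by_contra h
        obtain ⟨k, rfl⟩ : ∃ k, n = k + 2 := ⟨n - 2, by omega⟩
        exact (h8 k S rfl).false e
      subst hn1
      have hS : Nat.card S = 8 := by
        rw [Nat.card_congr e.toEquiv, Nat.card_eq_fintype_card, QuaternionGroup.card]; rfl
      by_cases h4 : Nat.card P ≤ 2 ^ 2
      · exact Or.inl ⟨Transfer.isMulCommutative_of_card_le_sq a h4,
          Transfer.isMulCommutative_of_card_le_sq b (c ▸ h4)⟩
      · obtain ⟨j, hj⟩ := IsPGroup.iff_card.1 a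
        have : 2 ^ 3 ≤ Nat.card P := by
          rw [hj] at h4 ⊢
          refine Nat.pow_le_pow_right two_pos ?_
          by_contra h5
          exact h4 (Nat.pow_le_pow_right two_pos (by omega))
        exact Or.inr ⟨sylIn_of_card_le (sylIn_top S) le_top a (by omega),
          sylIn_of_card_le (sylIn_top S) le_top b (by omega)⟩

theorem ind (C : ∀ (G : Type u) [Group G], Subgroup G → Prop)
    (h1 : ∀ (G : Type u) [Group G] [Finite G] (M : Subgroup G) [M.Normal], C G M → BG G → M ≠ ⊥ →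
      ∃ (N : Subgroup G) (_ : N.Normal), N ≠ ⊥ ∧ N ≤ M ∧ BG (G ⧸ N) ∧
        C (G ⧸ N) (M.map (QuotientGroup.mk' N))) (n : ℕ) :
    ∀ (G : Type u) [Group G] [Finite G], Nat.card G = n → BG G → ∀ (H : Type u) [Group H]
      (f : G →* H), Function.Surjective f → C G f.ker → BG H := by
  induction n using Nat.strong_induction_on with
  | _ n ih =>
  intro G _ _ hn hB H _ f hf hC
  by_cases h0 : f.ker = ⊥
  · haveI : Fact (Nat.Prime 2) := ⟨Nat.prime_two⟩
    have hi := (MonoidHom.ker_eq_bot_iff f).1 h0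
    let e := MulEquiv.ofBijective f ⟨hi, hf⟩
    intro A B hA hB' hc
    have hr : ∀ X : Subgroup H, X ≤ f.range := fun X => by
      rw [MonoidHom.range_eq_top.2 hf]; exact le_top
    obtain ⟨g, hg⟩ := hB (A.comap f) (B.comap f) (A.comap_injective_isMulCommutative hi)
      (B.comap_injective_isMulCommutative hi)
      (by rw [Solv.card_comap f (hr A), Solv.card_comap f (hr B), hc])
    refine ⟨f g, ?_⟩
    have hg' : B.comap f = cj g (A.comap f) := hg
    rw [← map_comap_eq_self_of_surjective hf B, hg', map_cj, map_comap_eq_self_of_surjective hf]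
  obtain ⟨N, _, a, b, c, d⟩ := h1 G f.ker hC hB h0
  refine ih _ ?_ (G ⧸ N) rfl c H (QuotientGroup.lift N f b)
    (QuotientGroup.lift_surjective_of_surjective N f hf b) (by rwa [QuotientGroup.ker_lift])
  rw [← hn, card_eq_card_quotient_mul_card_subgroup N]
  have : 1 < Nat.card N := (one_lt_card_iff_ne_bot N).2 a
  have : 0 < Nat.card (G ⧸ N) := Nat.card_pos
  nlinarith

theorem quot_odd {G : Type u} [Group G] [Finite G] (hB : BG G) (M : Subgroup G) [M.Normal]
    (hM : Odd (Nat.card M)) (hs : Group.IsSolvable M) : BG (G ⧸ M) := by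
  refine ind (fun G _ M => Odd (Nat.card M) ∧ Group.IsSolvable M) ?_ _ G rfl hB _
    (QuotientGroup.mk' M) (QuotientGroup.mk'_surjective M)
    (by rw [QuotientGroup.ker_mk']; exact ⟨hM, hs⟩)
  intro G _ _ M _ ⟨hM, hs⟩ hB h0
  obtain ⟨p, N, hp, hN, a, b, c, d, e, -⟩ := Solv.exists_normal_elementary_le M h0
  haveI := Fact.mk hp
  refine ⟨N, hN, a, b, quot_elem hB (QuotientGroup.mk' N) (QuotientGroup.mk'_surjective N) (p := p)
    (by rw [QuotientGroup.ker_mk']; exact ⟨c, d⟩) (by rwa [QuotientGroup.ker_mk']) ?_,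
    Odd.of_dvd_nat hM (card_map_dvd _ _), Solv.isSolvable_map _ _⟩
  rintro n S rfl
  exact absurd ((Solv.dvd_card_of_isPGroup e a).trans (card_dvd_of_le b)) hM.not_two_dvd_nat

theorem noQ16 [Finite G] (hB : BG G) (hs : Group.IsSolvable G) (hO : pPrimeCore 2 G = ⊥) {n : ℕ}
    (φ : QuaternionGroup (2 ^ (n + 2)) →* G) (hφ : Function.Injective φ)
    (hS : SylIn 2 φ.range ⊤) : False := by
  have hC := Solv.centralizer_pCore_le (p := 2) hO
  have hF : pCore 2 G ≤ φ.range := hS.le_of_le_normalizer le_top (isPGroup_pCore 2 G)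
    (by rw [normalizer_eq_top]; exact le_top)
  have h4 : ∃ x ∈ pCore 2 G, orderOf x = 4 := by
    by_cases h : ∀ x ∈ pCore 2 G, x ^ 2 = 1
    · exfalso
      have h1 : φ (.xa 0) ∈ pCore 2 G := by
        refine hC (mem_centralizer_iff.2 fun x hx => ?_)
        obtain ⟨y, rfl⟩ := hF hx
        have h2 : y ^ 2 = 1 := hφ (by rw [map_pow, h _ hx, map_one])
        rw [← map_mul, ← map_mul]
        congr 1
        rcases y with i | i
        · rw [sq, QuaternionGroup.a_mul_a, QuaternionGroup.one_def] at h2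
          have h3 : i + i = 0 := by injection h2
          rw [QuaternionGroup.a_mul_xa, QuaternionGroup.xa_mul_a]
          congr 1
          linear_combination -h3
        · have := orderOf_dvd_of_pow_eq_one h2
          rw [QuaternionGroup.orderOf_xa] at this
          exact absurd this (by norm_num)
      have h2 := orderOf_dvd_of_pow_eq_one (h _ h1)
      rw [orderOf_injective φ hφ, QuaternionGroup.orderOf_xa] at h2
      exact absurd h2 (by norm_num)
    · push Not at h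
      obtain ⟨x, hx, hx2⟩ := h
      obtain ⟨k, hk⟩ := exists_orderOf_of_isPGroup (isPGroup_pCore 2 G) hx
      have hk2 : 2 ≤ k := by
        by_contra h1
        refine hx2 (orderOf_dvd_iff_pow_eq_one.1 ?_)
        rw [hk]
        exact (pow_dvd_pow 2 (by omega : k ≤ 1)).trans (by norm_num)
      obtain ⟨j, rfl⟩ : ∃ j, k = j + 2 := ⟨k - 2, by omega⟩
      refine ⟨x ^ 2 ^ j, pow_mem hx _, ?_⟩
      rw [orderOf_pow_of_dvd (by positivity) (by rw [hk]; exact pow_dvd_pow _ (by omega)), hk,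
        pow_add, Nat.mul_div_cancel_left _ (by positivity)]
      rfl
  have hxa : ∀ i, φ (.xa i) ∈ pCore 2 G := fun i => by
    obtain ⟨x, hx, hx4⟩ := h4
    exact S3909.mem_of hB _ _
      ⟨x, hx, by rw [hx4, orderOf_injective φ hφ, QuaternionGroup.orderOf_xa]⟩
  have ha : φ (.a 1) ∈ pCore 2 G := by
    have := mul_mem (inv_mem (hxa 0)) (hxa 1)
    rw [← map_inv, ← map_mul] at this
    convert this using 2
    rw [eq_inv_mul_iff_mul_eq, QuaternionGroup.xa_mul_a, zero_add]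
  have ho : orderOf ((φ (.a 1) ^ 2 ^ n) ^ 2) = 4 := by
    have h1 : orderOf (φ (.a 1)) = 2 ^ (n + 1) * 4 := by
      rw [orderOf_injective φ hφ, QuaternionGroup.orderOf_a_one]; ring
    rw [← pow_mul, ← pow_succ, orderOf_pow_of_dvd (by positivity) (by rw [h1]; exact Dvd.intro _ rfl),
      h1, Nat.mul_div_cancel_left _ (by positivity)]
  obtain ⟨g, hg⟩ := hB (zpowers ((φ (.a 1) ^ 2 ^ n) ^ 2)) (zpowers (φ (.xa 0))) inferInstance
    inferInstance (by
      rw [Nat.card_zpowers, Nat.card_zpowers, ho, orderOf_injective φ hφ,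
        QuaternionGroup.orderOf_xa])
  have hg' : zpowers (φ (.xa 0)) = cj g (zpowers ((φ (.a 1) ^ 2 ^ n) ^ 2)) := hg
  rw [cj_zpowers] at hg'
  obtain ⟨j, hj⟩ := mem_zpowers_iff.1 (hg' ▸ mem_zpowers (φ (.xa 0)))
  obtain ⟨y, hy⟩ := hF (zpow_mem ((pCore_normal' 2 G).conj_mem _ (pow_mem ha (2 ^ n)) g) j)
  have h5 : y ^ 2 = .xa 0 := hφ (by
    rw [map_pow, hy, ← hj, ← conj_pow (b := φ (.a 1) ^ 2 ^ n) (i := 2), ← zpow_natCast,
      ← zpow_mul, mul_comm j, zpow_mul, zpow_natCast])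
  rcases y with i | i
  · rw [sq, QuaternionGroup.a_mul_a] at h5; cases h5
  · rw [QuaternionGroup.xa_sq] at h5; cases h5

theorem quot_sol {G : Type u} [Group G] [Finite G] (hB : BG G) (hs : Group.IsSolvable G)
    (M : Subgroup G) [M.Normal] : BG (G ⧸ M) := by
  refine ind (fun G _ _ => Group.IsSolvable G) ?_ _ G rfl hB _
    (QuotientGroup.mk' M) (QuotientGroup.mk'_surjective M) hs
  intro G _ _ M _ hs hB h0
  obtain ⟨p, N, hp, hN, a, b, c, d, e, -⟩ := Solv.exists_normal_elementary_le M h0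
  haveI := Fact.mk hp
  refine ⟨N, hN, a, b, quot_elem hB (QuotientGroup.mk' N) (QuotientGroup.mk'_surjective N) (p := p)
    (by rw [QuotientGroup.ker_mk']; exact ⟨c, d⟩) (by rwa [QuotientGroup.ker_mk']) ?_,
    inferInstance⟩
  rintro n S rfl
  refine ⟨fun e => ?_⟩
  have hco := Solv.coprime_card_pPrimeCore (p := 2) (G := G)
  have h1 := quot_odd hB (pPrimeCore 2 G) (Nat.coprime_two_right.1 hco) inferInstance
  let ψ : QuaternionGroup (2 ^ (n + 2)) →* G := (S : Subgroup G).subtype.comp e.symm.toMonoidHom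
  have hψ : ψ.range = S := by
    rw [MonoidHom.range_comp, MonoidHom.range_eq_top.2 e.symm.surjective, ← MonoidHom.range_eq_map,
      range_subtype]
  refine noQ16 h1 inferInstance (PLocal.pPrimeCore_quotient_pPrimeCore 2 G)
    ((QuotientGroup.mk' (pPrimeCore 2 G)).comp ψ) ?_ ?_
  · rw [injective_iff_map_eq_one]
    intro x hx
    have h2 : ψ x ∈ pPrimeCore 2 G := (QuotientGroup.eq_one_iff _).1 hx
    have h3 : ψ x ∈ (S : Subgroup G) := hψ ▸ ⟨x, rfl⟩
    obtain ⟨k, hk⟩ := exists_orderOf_of_isPGroup S.2 h3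
    have h4 : orderOf (ψ x) = 1 := (Nat.coprime_self _).1
      ((Nat.Coprime.coprime_dvd_left (orderOf_dvd_natCard _ h2) (hco.pow_right k)).coprime_dvd_right
        hk.dvd)
    exact e.symm.injective (Subtype.ext (by rw [map_one]; exact orderOf_eq_one_iff.1 h4))
  · have := (sylIn_top S).map (QuotientGroup.mk' (pPrimeCore 2 G))
    rwa [map_top_of_surjective _ (QuotientGroup.mk'_surjective _), ← hψ,
      ← MonoidHom.range_comp] at this

end Cfsg.Agent.FG.BGrp
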