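import Cfsg.Agent.Loc.PGrp
import Cfsg.Agent.Loc.Res
import Cfsg.Agent.FTC.Tate
import Cfsg.Agent.PGrp.Basic
import Mathlib.Algebra.Group.ForwardDiff

/-! Partial transfers given by a cocycle `c : G → X → A` on a `G`-set: evaluation on orbits of
`p`-subgroups (used for Grün, Hall–Wielandt, Yoshida). (helper3) -/

set_option linter.dupNamespace false
set_option linter.unusedSectionVars false
set_option linter.unusedVariables false

namespace Cfsg.Agent.FG.Coc
open Subgroup Cfsg Cfsg.Agent.Loc MulAction Finset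
open scoped commutatorElement
variable {G X A : Type*} [Group G] [MulAction G X] [Fintype X] [CommGroup A] {p : ℕ}

open scoped Classical in
/-- The orbit of `q` under `T`, as a finset. -/
noncomputable def orb (T : Subgroup G) (q : X) : Finset X := univ.filter fun x => ∃ t ∈ T, t • q = x

theorem mem_orb {T : Subgroup G} {q x : X} : x ∈ orb T q ↔ ∃ t ∈ T, t • q = x := by simp [orb]

theorem self_mem_orb (T : Subgroup G) (q : X) : q ∈ orb T q := mem_orb.2 ⟨1, T.one_mem, one_smul _ _⟩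

theorem smul_mem_orb {T : Subgroup G} {q x : X} {t : G} (ht : t ∈ T) (hx : x ∈ orb T q) : t • x ∈ orb T q := by
  obtain ⟨s, hs, rfl⟩ := mem_orb.1 hx
  exact mem_orb.2 ⟨t * s, T.mul_mem ht hs, mul_smul _ _ _⟩

theorem orb_eq_of_mem {T : Subgroup G} {q x : X} (hx : x ∈ orb T q) : orb T x = orb T q := by
  obtain ⟨s, hs, rfl⟩ := mem_orb.1 hx
  ext y
  simp only [mem_orb]
  constructor
  · rintro ⟨t, ht, rfl⟩; exact ⟨t * s, T.mul_mem ht hs, mul_smul _ _ _⟩
  · rintro ⟨t, ht, rfl⟩; exact ⟨t * s⁻¹, T.mul_mem ht (T.inv_mem hs), by simp [mul_smul]⟩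

theorem prod_eq_one_of_orb (T : Subgroup G) (f : X → A) (Y : Finset X) (hY : ∀ t ∈ T, ∀ y ∈ Y, t • y ∈ Y)
    (h : ∀ q ∈ Y, ∏ x ∈ orb T q, f x = 1) : ∏ y ∈ Y, f y = 1 := by
  classical
  rw [← prod_fiberwise_of_maps_to (g := fun x => orb T x) (t := Y.image fun x => orb T x)
    (fun x hx => mem_image_of_mem _ hx)]
  refine prod_eq_one fun O hO => ?_
  obtain ⟨q, hq, rfl⟩ := mem_image.1 hO
  rw [← h q hq]
  congr 1
  ext x
  simp only [mem_filter]
  constructor
  · rintro ⟨-, h2⟩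
    exact h2 ▸ self_mem_orb T x
  · intro hx
    refine ⟨?_, orb_eq_of_mem hx⟩
    obtain ⟨t, ht, rfl⟩ := mem_orb.1 hx
    exact hY t ht q hq

theorem prod_orb_eq {T R : Subgroup G} (hR : R ≤ T) {t : G} (ht : t ∈ T) {m : ℕ} {q : X}
    (h1 : ∀ g ∈ T, ∃ i < m, ∃ r ∈ R, g = t ^ i * r)
    (h2 : ∀ i < m, ∀ j < m, ∀ r ∈ R, t ^ i = t ^ j * r → i = j)
    (h3 : ∀ g ∈ T, g • q = q → g ∈ R) (f : X → A) :
    ∏ x ∈ orb T q, f x = ∏ i ∈ range m, ∏ y ∈ orb R q, f (t ^ i • y) := by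
  rw [← prod_product']
  symm
  refine prod_bij (fun z _ => t ^ z.1 • z.2) ?_ ?_ ?_ (fun _ _ => rfl)
  · rintro ⟨i, y⟩ hz
    obtain ⟨r, hr, rfl⟩ := mem_orb.1 (mem_product.1 hz).2
    exact mem_orb.2 ⟨t ^ i * r, T.mul_mem (T.pow_mem ht i) (hR hr), mul_smul _ _ _⟩
  · rintro ⟨i, y⟩ hz ⟨j, y'⟩ hz' e
    obtain ⟨r, hr, rfl⟩ := mem_orb.1 (mem_product.1 hz).2
    obtain ⟨r', hr', rfl⟩ := mem_orb.1 (mem_product.1 hz').2
    have e' : t ^ i • r • q = t ^ j • r' • q := e
    have h4 : (t ^ j * r')⁻¹ * (t ^ i * r) ∈ R := h3 _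
      (T.mul_mem (T.inv_mem (T.mul_mem (T.pow_mem ht j) (hR hr'))) (T.mul_mem (T.pow_mem ht i) (hR hr)))
      (by rw [mul_smul, mul_smul (t ^ i), e', ← mul_smul (t ^ j), inv_smul_smul])
    have hij : i = j := h2 i (mem_range.1 (mem_product.1 hz).1) j (mem_range.1 (mem_product.1 hz').1)
      (r' * ((t ^ j * r')⁻¹ * (t ^ i * r)) * r⁻¹) (R.mul_mem (R.mul_mem hr' h4) (R.inv_mem hr)) (by group)
    subst hij
    rw [smul_left_cancel_iff] at e'
    rw [e']
  · intro x hx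
    obtain ⟨g, hg, rfl⟩ := mem_orb.1 hx
    obtain ⟨i, hi, r, hr, rfl⟩ := h1 g hg
    exact ⟨(i, r • q), mem_product.2 ⟨mem_range.2 hi, mem_orb.2 ⟨r, hr, rfl⟩⟩, (mul_smul _ _ _).symm⟩

theorem prod_smul_eq {Y : Finset X} {w : G} (hY : ∀ y ∈ Y, w • y ∈ Y) (f : X → A) :
    ∏ y ∈ Y, f (w • y) = ∏ y ∈ Y, f y := by
  refine prod_bij (fun y _ => w • y) hY (fun a _ b _ e => smul_left_cancel w e) ?_ (fun _ _ => rfl)
  intro b hb
  exact (surj_on_of_inj_on_of_card_le (fun y _ => w • y) hY (fun a b _ _ e => smul_left_cancel w e) le_rfl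
    b hb).imp fun a ⟨ha, e⟩ => ⟨ha, e.symm⟩

/-- A cocycle. -/
def IsCoc (c : G → X → A) : Prop := ∀ g h x, c (g * h) x = c g (h • x) * c h x

namespace IsCoc
variable {c : G → X → A}

theorem one (hc : IsCoc c) (x : X) : c 1 x = 1 := by
  have := hc 1 1 x
  rw [one_mul, one_smul] at this
  exact mul_eq_left.1 this.symm

theorem inv (hc : IsCoc c) (g : G) (x : X) : c g⁻¹ (g • x) = (c g x)⁻¹ := by
  have := hc g⁻¹ g x
  rw [inv_mul_cancel, hc.one] at this
  exact eq_inv_of_mul_eq_one_left this.symm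

theorem pow (hc : IsCoc c) (g : G) (n : ℕ) (x : X) : c (g ^ n) x = ∏ i ∈ range n, c g (g ^ i • x) := by
  induction n with
  | zero => simp [hc.one]
  | succ n ih => rw [pow_succ', hc, prod_range_succ, ih, mul_comm]

theorem prod_mul (hc : IsCoc c) {Y : Finset X} (g : G) {h : G} (hY : ∀ y ∈ Y, h • y ∈ Y) :
    ∏ y ∈ Y, c (g * h) y = (∏ y ∈ Y, c g y) * ∏ y ∈ Y, c h y := by
  simp only [hc g h]
  rw [prod_mul_distrib, prod_smul_eq hY (c g)]

theorem prod_conj (hc : IsCoc c) {Y : Finset X} {g v : G} (hY : ∀ y ∈ Y, (g⁻¹ * v * g) • y ∈ Y) :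
    ∏ y ∈ Y, c v (g • y) = ∏ y ∈ Y, c (g⁻¹ * v * g) y := by
  have h : ∀ y, c (g⁻¹ * v * g) y = (c g ((g⁻¹ * v * g) • y))⁻¹ * (c v (g • y) * c g y) := fun y => by
    rw [mul_assoc, hc, hc v g, ← hc.inv]
    congr 2
    simp [mul_smul]
  simp only [h]
  rw [prod_mul_distrib, prod_mul_distrib, prod_inv_distrib, prod_smul_eq hY (c g), mul_comm (∏ y ∈ Y, c v _),
    inv_mul_cancel_left]

theorem prod_eq_one [Finite G] (hc : IsCoc c) {w : G} (h : ∀ k x, w ^ k • x = x → c (w ^ k) x = 1)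
    {Y : Finset X} (hY : ∀ y ∈ Y, w • y ∈ Y) : ∏ y ∈ Y, c w y = 1 := by
  refine prod_eq_one_of_orb (zpowers w) _ Y (fun t ht y hy => ?_) fun q _ => ?_
  · obtain ⟨n, rfl⟩ := (mem_powers_iff_mem_zpowers.2 ht)
    induction n with
    | zero => simpa using hy
    | succ n ih => simpa [pow_succ', mul_smul] using hY _ (ih (pow_mem (mem_zpowers w) n))
  · have hpos : 0 < period w q := period_pos_of_orderOf_pos (orderOf_pos w) q
    rw [prod_orb_eq (R := zpowers w ⊓ stabilizer G q) inf_le_left (mem_zpowers w) (m := period w q) ?_ ?_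
      (fun g h1 h2 => ⟨h1, h2⟩), prod_comm]
    · refine Finset.prod_eq_one fun y hy => ?_
      obtain ⟨r, hr, rfl⟩ := mem_orb.1 hy
      rw [← hc.pow, show r • q = q from hr.2]
      exact h _ _ (pow_period_smul w q)
    · intro g hg
      obtain ⟨n, rfl⟩ := (mem_powers_iff_mem_zpowers.2 hg)
      refine ⟨n % period w q, Nat.mod_lt _ hpos, w ^ (period w q * (n / period w q)),
        ⟨pow_mem (mem_zpowers w) _, pow_smul_eq_iff_period_dvd.2 (dvd_mul_right _ _)⟩, ?_⟩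
      rw [← pow_add, Nat.mod_add_div]
    · have key : ∀ i j, i ≤ j → j < period w q → w ^ i • q = w ^ j • q → i = j := fun i j h1 h2 e => by
        obtain ⟨d, rfl⟩ := Nat.exists_eq_add_of_le h1
        rw [pow_add, mul_smul, smul_left_cancel_iff] at e
        have := Nat.eq_zero_of_dvd_of_lt (pow_smul_eq_iff_period_dvd.1 e.symm) (by omega)
        omega
      intro i hi j hj r hr e
      have e' : w ^ i • q = w ^ j • q := by rw [e, mul_smul, show r • q = q from hr.2]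
      rcases le_total i j with h1 | h1
      · exact key i j h1 hj e'
      · exact (key j i h1 hi e'.symm).symm

end IsCoc

/-- A maximal subgroup of a `p`-group above a given proper subgroup. -/
theorem exists_max [Finite G] [hp : Fact p.Prime] {T S : Subgroup G} (hT : IsPGroup p T) (hS : S < T) :
    ∃ R, S ≤ R ∧ R < T ∧ T ≤ normalizer (R : Set G) ∧ R.relIndex T = p ∧ ∀ t ∈ T, t ∉ R →
      (∀ g ∈ T, ∃ i < p, ∃ r ∈ R, g = t ^ i * r) ∧
      (∀ i < p, ∀ j < p, ∀ r ∈ R, t ^ i = t ^ j * r → i = j) := by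
  obtain ⟨M, hM, hSM⟩ := (eq_top_or_exists_le_coatom (S.subgroupOf T)).resolve_left
    (fun e => hS.not_ge (subgroupOf_eq_top.1 e))
  obtain ⟨hn, hi⟩ := Transfer.normal_and_index_of_isCoatom_of_isPGroup hT hM
  have hc : Nat.card (T ⧸ M) = p := hi
  refine ⟨M.map T.subtype, fun x hx => ⟨⟨x, hS.le hx⟩, hSM hx, rfl⟩, ?_, normal_map_subtype hn, ?_,
    fun t ht htR => ?_⟩
  · refine lt_of_le_not_ge (map_subtype_le _) fun e => hM.1 (eq_top_iff.2 fun x _ => ?_)
    obtain ⟨y, hy, e'⟩ := e x.2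
    exact (Subtype.ext e' : y = x) ▸ hy
  · rw [relIndex, subgroupOf_map_subtype', hi]
  have h1 : ((⟨t, ht⟩ : T) : T ⧸ M) ≠ 1 := fun e =>
    htR ⟨⟨t, ht⟩, (QuotientGroup.eq_one_iff _).1 e, rfl⟩
  have ho : orderOf ((⟨t, ht⟩ : T) : T ⧸ M) = p := by
    have := orderOf_dvd_natCard ((⟨t, ht⟩ : T) : T ⧸ M)
    rw [hc] at this
    exact ((Nat.dvd_prime hp.out).1 this).resolve_left (by rwa [orderOf_eq_one_iff])
  constructor
  · intro g hg
    have h2 : ((⟨g, hg⟩ : T) : T ⧸ M) ∈ zpowers ((⟨t, ht⟩ : T) : T ⧸ M) := by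
      rw [zpowers_eq_top_of_prime_card hc h1]; trivial
    classical
    rw [mem_zpowers_iff_mem_range_orderOf, ho] at h2
    obtain ⟨i, hi, e⟩ := mem_image.1 h2
    rw [← QuotientGroup.mk_pow, QuotientGroup.eq] at e
    exact ⟨i, mem_range.1 hi, (t ^ i)⁻¹ * g, ⟨_, e, rfl⟩, by group⟩
  · intro i hi j hj r ⟨m, hm, hr⟩ e
    refine pow_injOn_Iio_orderOf (x := ((⟨t, ht⟩ : T) : T ⧸ M)) (by rwa [ho]) (by rwa [ho]) ?_
    have : (⟨t, ht⟩ : T) ^ i = (⟨t, ht⟩ : T) ^ j * m := Subtype.ext (by rw [← hr] at e; exact e)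
    simp only
    rw [← QuotientGroup.mk_pow, ← QuotientGroup.mk_pow, this, QuotientGroup.mk_mul_of_mem _ hm]

/-- Evaluation of the partial transfer on a nontrivial orbit of a `p`-group. -/
theorem IsCoc.exists_eval [Finite G] [hp : Fact p.Prime] {c : G → X → A} (hc : IsCoc c) {T : Subgroup G}
    (hT : IsPGroup p T) {q : X} (hq : ∃ t ∈ T, t • q ≠ q) {u : G} (hu : u ∈ T) :
    ∃ R, R < T ∧ T ≤ normalizer (R : Set G) ∧ R.relIndex T = p ∧
      (u ∉ R → u ^ p ∈ R ∧ ∏ x ∈ orb T q, c u x = ∏ y ∈ orb R q, c (u ^ p) y) ∧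
      (u ∈ R → ∀ t ∈ T, t ∉ R →
        ∏ x ∈ orb T q, c u x = ∏ i ∈ range p, ∏ y ∈ orb R q, c ((t ^ i)⁻¹ * u * t ^ i) y) := by
  obtain ⟨R, h1, h2, h3, h4, h5⟩ := exists_max (S := T ⊓ stabilizer G q) hT
    (lt_of_le_not_ge inf_le_left fun e => by obtain ⟨t, ht, h⟩ := hq; exact h (e ht).2)
  have h6 : ∀ g ∈ T, g • q = q → g ∈ R := fun g k1 k2 => h1 ⟨k1, k2⟩
  refine ⟨R, h2, h3, h4, fun huR => ⟨?_, ?_⟩, fun huR t ht htR => ?_⟩
  · haveI := (normal_subgroupOf_iff_le_normalizer h2.le).2 h3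
    have := (R.subgroupOf T).pow_index_mem ⟨u, hu⟩
    rwa [← relIndex, h4] at this
  · rw [prod_orb_eq h2.le hu (h5 u hu huR).1 (h5 u hu huR).2 h6, prod_comm]
    simp only [hc.pow]
  · rw [prod_orb_eq h2.le ht (h5 t ht htR).1 (h5 t ht htR).2 h6]
    refine prod_congr rfl fun i _ => hc.prod_conj fun y hy => smul_mem_orb ?_ hy
    exact conj_inv_mem_of_mem_normalizer (h3 (T.pow_mem ht i)) huR

theorem dvd_alt_choose [hp : Fact p.Prime] {k : ℕ} (hk : k < p) :
    (p : ℤ) ∣ (-1) ^ (p - 1 - k) * ((p - 1).choose k : ℤ) - 1 := by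
  have h1 := hp.out.one_le
  rw [← Nat.choose_symm (Nat.le_sub_one_of_lt hk), ← Int.alternating_sum_range_choose_eq_choose,
    Finset.sum_range_succ', Nat.sub_add_cancel h1]
  simp only [pow_zero, Nat.choose_zero_right, Nat.cast_one, mul_one, add_sub_cancel_right]
  refine Finset.dvd_sum fun i hi => Dvd.dvd.mul_left (Int.natCast_dvd_natCast.2
    (hp.out.dvd_choose_self i.succ_ne_zero ?_)) _
  have := Finset.mem_range.1 hi
  omega

theorem iter_mem {R : Subgroup G} {z u : G} (hz : z ∈ normalizer (R : Set G)) (hu : u ∈ R) (k : ℕ) :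
    (fun y : G => y⁻¹ * z⁻¹ * y * z)^[k] u ∈ R := by
  induction k with
  | zero => exact hu
  | succ k ih =>
    rw [Function.iterate_succ_apply']
    have := R.mul_mem (R.inv_mem ih) (conj_inv_mem_of_mem_normalizer hz ih)
    simpa only [mul_assoc] using this

theorem prod_conj_eq [hp : Fact p.Prime] {R : Subgroup G} {ψ : G → A}
    (hψ : ∀ a ∈ R, ∀ b ∈ R, ψ (a * b) = ψ a * ψ b) (hA : ∀ a : A, a ^ p = 1) {z u : G}
    (hz : z ∈ normalizer (R : Set G)) (hu : u ∈ R) :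
    ∏ i ∈ range p, ψ ((z ^ i)⁻¹ * u * z ^ i) = ψ ((fun y : G => y⁻¹ * z⁻¹ * y * z)^[p - 1] u) := by
  let s : G → ℕ → Additive A := fun x i => Additive.ofMul (ψ ((z ^ i)⁻¹ * x * z ^ i))
  let δ : G → G := fun y => y⁻¹ * z⁻¹ * y * z
  have hm : ∀ x ∈ R, ∀ i, (z ^ i)⁻¹ * x * z ^ i ∈ R := fun x hx i =>
    conj_inv_mem_of_mem_normalizer (pow_mem hz i) hx
  have h1 : ∀ x ∈ R, fwdDiff 1 (s x) = s (δ x) := fun x hx => funext fun i => by
    have e : (z ^ (i + 1))⁻¹ * x * z ^ (i + 1) = ((z ^ i)⁻¹ * x * z ^ i) * ((z ^ i)⁻¹ * δ x * z ^ i) := by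
      simp only [δ, pow_succ']; group
    simp only [fwdDiff, s]
    rw [e, hψ _ (hm x hx i) _ (hm (δ x) (iter_mem hz hx 1) i), ofMul_mul, add_sub_cancel_left]
  have h2 : ∀ k, (fwdDiff 1)^[k] (s u) = s (δ^[k] u) := by
    intro k
    induction k with
    | zero => rfl
    | succ k ih =>
      rw [Function.iterate_succ_apply', Function.iterate_succ_apply', ih, h1 _ (iter_mem hz hu k)]
  have h3 := fwdDiff_iter_eq_sum_shift 1 (s u) (p - 1) 0
  rw [h2 _, Nat.sub_add_cancel hp.out.one_le, Finset.sum_congr rfl (g := fun i => s u i)] at h3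
  · have h4 : s (δ^[p - 1] u) 0 = Additive.ofMul (ψ (δ^[p - 1] u)) := by simp [s]
    rw [h4] at h3
    exact (ofMul_prod _ _).trans h3.symm
  intro i hi
  obtain ⟨c, hc⟩ := dvd_alt_choose (Finset.mem_range.1 hi)
  have h5 : (p : ℤ) • s u i = 0 := by
    rw [natCast_zsmul, ← ofMul_pow, hA]
    rfl
  rw [sub_eq_iff_eq_add.1 hc, add_smul, mul_comm, mul_smul]
  simp [h5]

section quot
variable {H : Subgroup G}

theorem out_mem (H : Subgroup G) (g : G) (q : G ⧸ H) : (g • q).out⁻¹ * g * q.out ∈ H := by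
  rw [mul_assoc, ← QuotientGroup.eq, QuotientGroup.out_eq', ← smul_eq_mul, ← MulAction.Quotient.smul_mk,
    QuotientGroup.out_eq']

/-- The transfer cocycle. -/
noncomputable def coc (φ : H →* A) (g : G) (q : G ⧸ H) : A := φ ⟨_, out_mem H g q⟩

theorem isCoc_coc (φ : H →* A) : IsCoc (coc φ) := fun g h q => by
  simp only [coc]
  rw [← map_mul]
  congr 1
  ext
  simp [mul_smul, mul_assoc]

theorem coc_of_fixed (φ : H →* A) {g : G} {q : G ⧸ H} (h : g • q = q) :
    ∃ hm : q.out⁻¹ * g * q.out ∈ H, coc φ g q = φ ⟨_, hm⟩ := by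
  have := out_mem H g q
  refine ⟨by rwa [h] at this, ?_⟩
  simp only [coc, h]

/-- The transfer. -/
noncomputable def trf [Fintype (G ⧸ H)] (φ : H →* A) : G →* A :=
  MonoidHom.mk' (fun g => ∏ q : G ⧸ H, coc φ g q) fun g h =>
    (isCoc_coc φ).prod_mul g fun y _ => mem_univ _

theorem trf_apply [Fintype (G ⧸ H)] (φ : H →* A) (g : G) : trf φ g = ∏ q : G ⧸ H, coc φ g q := rfl

theorem prod_coc_eq_one [Finite G] [Fintype (G ⧸ H)] (φ : H →* A) {w : G}
    (h : ∀ k g (hm : g⁻¹ * w ^ k * g ∈ H), φ ⟨_, hm⟩ = 1) {Y : Finset (G ⧸ H)} (hY : ∀ y ∈ Y, w • y ∈ Y) :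
    ∏ y ∈ Y, coc φ w y = 1 :=
  (isCoc_coc φ).prod_eq_one (fun k x e => by
    obtain ⟨hm, e'⟩ := coc_of_fixed φ e
    rw [e', h]) hY

end quot

theorem orderOf_conj_pow_lt [Finite G] [hp : Fact p.Prime] {P : Subgroup G} (hP : IsPGroup p P) {u : G}
    (hu : u ∈ P) (h1 : u ≠ 1) (k : ℕ) (g : G) : orderOf (g⁻¹ * (u ^ p) ^ k * g) < orderOf u := by
  have e := orderOf_conj' g⁻¹ ((u ^ p) ^ k)
  rw [inv_inv] at e
  rw [e]
  refine lt_of_le_of_lt (Nat.le_of_dvd (orderOf_pos _) (orderOf_pow_dvd k)) ?_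
  obtain ⟨n, hn⟩ := exists_orderOf_of_isPGroup hP hu
  have hd : p ∣ orderOf u := by
    rw [hn]
    refine dvd_pow_self p fun e => h1 ?_
    rwa [e, pow_zero, orderOf_eq_one_iff] at hn
  rw [orderOf_pow_of_dvd hp.out.ne_zero hd]
  exact Nat.div_lt_self (orderOf_pos u) hp.out.one_lt

/-- The partial transfer along an orbit. -/
noncomputable def IsCoc.hom {c : G → X → A} (hc : IsCoc c) (R : Subgroup G) (q : X) : R →* A :=
  MonoidHom.mk' (fun r => ∏ y ∈ orb R q, c r y) fun a b => hc.prod_mul _ fun y hy => smul_mem_orb b.2 hy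

/-- The transfer computation behind Grün's first theorem. -/
theorem gruen_aux [Finite G] [hp : Fact p.Prime] (P : Sylow p G) (φ : (P : Subgroup G) →* A)
    (h1 : ∀ g ∈ normalizer ((P : Subgroup G) : Set G), ∀ u (hu : u ∈ (P : Subgroup G))
      (hm : g⁻¹ * u * g ∈ (P : Subgroup G)), φ ⟨_, hm⟩ = φ ⟨u, hu⟩)
    (h2 : ∀ g, ∀ w ∈ ⁅(P : Subgroup G), (P : Subgroup G)⁆, ∀ hm : g⁻¹ * w * g ∈ (P : Subgroup G), φ ⟨_, hm⟩ = 1)
    (u : G) (hu : u ∈ (P : Subgroup G)) (hu' : u ∈ commutator G) : φ ⟨u, hu⟩ = 1 := by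
  classical
  induction hn : orderOf u using Nat.strong_induction_on generalizing u with
  | _ n ih =>
  subst hn
  by_cases hu1 : u = 1
  · subst hu1; exact map_one φ
  haveI := Fintype.ofFinite (G ⧸ (P : Subgroup G))
  have hc := isCoc_coc φ
  have hup : ∀ Y : Finset (G ⧸ (P : Subgroup G)), (∀ y ∈ Y, u ^ p • y ∈ Y) → ∏ y ∈ Y, coc φ (u ^ p) y = 1 :=
    fun Y hY => prod_coc_eq_one φ (fun k g hm => ih _ (orderOf_conj_pow_lt P.2 hu hu1 k g) _ hm
      ((commutator_normal _ _).conj_mem' _ (pow_mem (pow_mem hu' p) k) g) rfl) hY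
  have h0 : trf φ u = 1 := Abelianization.commutator_subset_ker (trf φ) hu'
  rw [trf_apply, ← prod_filter_mul_prod_filter_not univ (fun q => ∀ t ∈ (P : Subgroup G), t • q = q),
    prod_eq_one_of_orb (P : Subgroup G) _ (univ.filter fun q => ¬ ∀ t ∈ (P : Subgroup G), t • q = q), mul_one,
    prod_congr rfl (g := fun _ => φ ⟨u, hu⟩), prod_const] at h0
  · have h3 := P.2.card_modEq_card_fixedPoints (G ⧸ (P : Subgroup G))
    have h4 : Nat.card (fixedPoints (P : Subgroup G) (G ⧸ (P : Subgroup G))) =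
        #(univ.filter fun q : G ⧸ (P : Subgroup G) => ∀ t ∈ (P : Subgroup G), t • q = q) := by
      rw [← Nat.card_eq_finsetCard]
      refine Nat.card_congr (Equiv.subtypeEquivRight fun q => ?_)
      simp only [mem_fixedPoints, mem_filter, mem_univ, true_and]
      exact ⟨fun h t ht => h ⟨t, ht⟩, fun h t => h t t.2⟩
    rw [← h4] at h0
    obtain ⟨k, hk⟩ := P.2 ⟨u, hu⟩
    refine Transfer.eq_one_of_pow_eq_one_of_coprime (p := p) (k := k) (by rw [← map_pow, hk, map_one]) ?_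
    refine Nat.Coprime.coprime_dvd_left (orderOf_dvd_of_pow_eq_one h0) ?_
    rw [Nat.coprime_comm, hp.out.coprime_iff_not_dvd, ← h3.dvd_iff dvd_rfl]
    exact P.not_dvd_index
  · intro q hq
    have hq' := (mem_filter.1 hq).2
    obtain ⟨hm, e⟩ := coc_of_fixed φ (hq' u hu)
    rw [e]
    refine h1 _ ?_ u hu hm
    rw [← Subgroup.inv_mem_iff]
    refine mem_normalizer_of_cj_le (cj_le_iff_forall.2 fun t ht => ?_)
    rw [inv_inv]
    exact (coc_of_fixed φ (hq' t ht)).1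
  · intro t ht y hy
    simp only [mem_filter, mem_univ, true_and] at hy ⊢
    refine fun h => hy fun s hs => ?_
    have := h (t * s * t⁻¹) (mul_mem (mul_mem ht hs) (inv_mem ht))
    simpa [mul_smul] using this
  · intro q hq
    have hq' := (mem_filter.1 hq).2
    push Not at hq'
    obtain ⟨R, k1, k2, k3, k4, k5⟩ := hc.exists_eval P.2 hq' hu
    by_cases huR : u ∈ R
    · obtain ⟨t, ht, htR⟩ := SetLike.exists_of_lt k1
      rw [k5 huR t ht htR, prod_congr rfl (g := fun _ => hc.hom R q ⟨u, huR⟩), prod_const, card_range,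
        ← map_pow]
      · exact hup _ fun y hy => smul_mem_orb (R.pow_mem huR p) hy
      intro i _
      have hw : u⁻¹ * ((t ^ i)⁻¹ * u * t ^ i) ∈ R :=
        R.mul_mem (R.inv_mem huR) (conj_inv_mem_of_mem_normalizer (k2 (pow_mem ht i)) huR)
      have hw' : u⁻¹ * ((t ^ i)⁻¹ * u * t ^ i) ∈ ⁅(P : Subgroup G), (P : Subgroup G)⁆ := by
        have := commutator_mem_commutator (inv_mem hu) (inv_mem (pow_mem ht i))
        simpa [commutatorElement_def, mul_assoc] using this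
      rw [← mul_inv_cancel_left u ((t ^ i)⁻¹ * u * t ^ i), hc.prod_mul _ fun y hy => smul_mem_orb hw hy,
        prod_coc_eq_one φ (fun k g hm => h2 g _ (pow_mem hw' k) hm) fun y hy => smul_mem_orb hw hy, mul_one]
      rfl
    · rw [(k4 huR).2]
      exact hup _ fun y hy => smul_mem_orb (k4 huR).1 hy

/-- The transfer computation behind the theorems of Hall–Wielandt and Yoshida. -/
theorem wielandt_aux [Finite G] [hp : Fact p.Prime] (P : Sylow p G) {W : Subgroup G}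
    (hW : IsWeaklyClosed W (P : Subgroup G)) (φ : normalizer (W : Set G) →* A) (hA : ∀ a : A, a ^ p = 1)
    (h : ∀ x ∈ (P : Subgroup G), ∀ z ∈ W, ∀ W₀ : Subgroup W, IsCoatom W₀ →
      (fun y : G => y⁻¹ * z⁻¹ * y * z)^[p - 1] x ∈ W₀.map W.subtype →
      (fun y : G => y⁻¹ * z⁻¹ * y * z)^[p - 1] x ∈ ((frattini W₀).map W₀.subtype).map W.subtype)
    (u : G) (hu : u ∈ (P : Subgroup G)) (hu' : u ∈ pResidual p G) (hm : u ∈ normalizer (W : Set G)) :
    φ ⟨u, hm⟩ = 1 := by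
  classical
  have hPH : (P : Subgroup G) ≤ normalizer (W : Set G) := fun g hg =>
    mem_normalizer_iff_cj.2 (hW.2 g (cj_le_of_mem hg hW.1))
  have hPS := sylIn_of_sylow_le P hPH
  induction hn : orderOf u using Nat.strong_induction_on generalizing u with
  | _ n ih =>
  subst hn
  by_cases hu1 : u = 1
  · subst hu1; exact map_one φ
  haveI := Fintype.ofFinite (G ⧸ normalizer (W : Set G))
  have hc := isCoc_coc φ
  have hup : ∀ Y : Finset (G ⧸ normalizer (W : Set G)), (∀ y ∈ Y, u ^ p • y ∈ Y) →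
      ∏ y ∈ Y, coc φ (u ^ p) y = 1 := by
    refine fun Y hY => prod_coc_eq_one φ (fun k g hm => ?_) hY
    obtain ⟨j, hj⟩ := exists_pow_of_isPGroup P.2 (pow_mem (pow_mem hu p) k)
    obtain ⟨x, hx, hx'⟩ := hPS.exists_conj_le (zpowers_le.2 hm) (isPGroup_zpowers_of_pow (k := j)
      (by have := conj_pow (i := p ^ j) (a := g⁻¹) (b := (u ^ p) ^ k); rw [inv_inv] at this; rw [this, hj]; simp))
    have h3 := hx' (conj_mem_cj (mem_zpowers _))
    have h4 := ih _ (by rw [orderOf_conj']; exact orderOf_conj_pow_lt P.2 hu hu1 k g) _ h3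
      ((Transfer.pResidual_normal p G).conj_mem _ ((Transfer.pResidual_normal p G).conj_mem' _
        (pow_mem (pow_mem hu' p) k) g) x) (hPH h3) rfl
    have e : (⟨_, hPH h3⟩ : normalizer (W : Set G)) = ⟨x, hx⟩ * ⟨_, hm⟩ * ⟨x, hx⟩⁻¹ := rfl
    rwa [e, map_mul, map_mul, map_inv, mul_inv_cancel_comm] at h4
  have h0 : trf φ u = 1 := Transfer.pResidual_le_ker (fun a => ⟨1, by rw [pow_one, hA]⟩) (trf φ) hu'
  have hT : zpowers u ⊔ W ≤ P := sup_le (zpowers_le.2 hu) hW.1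
  have hfix : ∀ t ∈ normalizer (W : Set G), t • ((1 : G) : G ⧸ normalizer (W : Set G)) = (1 : G) :=
    fun t ht => by
      rw [MulAction.Quotient.smul_mk, QuotientGroup.eq]
      simpa using ht
  rw [trf_apply, ← mul_prod_erase univ _ (mem_univ ((1 : G) : G ⧸ normalizer (W : Set G))),
    prod_eq_one_of_orb (zpowers u ⊔ W) _ (univ.erase _), mul_one] at h0
  · obtain ⟨hm', e⟩ := coc_of_fixed φ (hfix u hm)
    have ho : ((1 : G) : G ⧸ normalizer (W : Set G)).out ∈ normalizer (W : Set G) := by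
      have := QuotientGroup.eq.1 (QuotientGroup.out_eq' ((1 : G) : G ⧸ normalizer (W : Set G)))
      simpa using this
    have e' : (⟨_, hm'⟩ : normalizer (W : Set G)) = ⟨_, ho⟩⁻¹ * ⟨_, hm⟩ * ⟨_, ho⟩ := rfl
    rwa [e, e', map_mul, map_mul, map_inv, inv_mul_cancel_comm] at h0
  · intro t ht y hy
    simp only [mem_erase, mem_univ, and_true] at hy ⊢
    refine fun e => hy ?_
    rw [← inv_smul_smul t y, e, hfix _ (inv_mem (hPH (hT ht)))]
  · intro q hq
    have hq' : ∃ t ∈ zpowers u ⊔ W, t • q ≠ q := by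
      by_contra hne
      push Not at hne
      have h3 : cj q.out⁻¹ W ≤ normalizer (W : Set G) := cj_le_iff_forall.2 fun t ht => by
        rw [inv_inv]; exact (coc_of_fixed φ (hne t (mem_sup_right ht))).1
      obtain ⟨x, hx, hx'⟩ := hPS.exists_conj_le h3 (isPGroup_cj _ (P.2.to_le hW.1))
      rw [cj_cj] at hx'
      have h4 := mul_mem (inv_mem hx) (mem_normalizer_iff_cj.2 (hW.2 _ hx'))
      refine (mem_erase.1 hq).1 ?_
      rw [← QuotientGroup.out_eq' q, QuotientGroup.eq]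
      simpa using h4
    obtain ⟨R, k1, k2, k3, k4, k5⟩ := hc.exists_eval (P.2.to_le hT) hq' (mem_sup_left (mem_zpowers u))
    by_cases huR : u ∈ R
    · obtain ⟨z, hz, hzR⟩ : ∃ z ∈ W, z ∉ R := by
        by_contra hne
        push Not at hne
        exact k1.not_ge (sup_le (zpowers_le.2 huR) hne)
      rw [k5 huR z (mem_sup_right hz) hzR, prod_conj_eq (R := R) (ψ := fun v => ∏ y ∈ orb R q, coc φ v y)
        (fun a _ b hb => hc.prod_mul _ fun y hy => smul_mem_orb hb hy) hA (k2 (mem_sup_right hz)) huR]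
      have hR := iter_mem (k2 (mem_sup_right hz)) huR (p - 1)
      have hW' : (fun y : G => y⁻¹ * z⁻¹ * y * z)^[p - 1] u ∈ W := by
        obtain ⟨m, hm⟩ : ∃ m, p - 1 = m + 1 := ⟨p - 2, by have := hp.out.two_le; omega⟩
        rw [hm, Function.iterate_succ_apply']
        exact W.mul_mem (conj_inv_mem_of_mem_normalizer
          (hPH (iter_mem (le_normalizer (hW.1 hz)) hu m)) (W.inv_mem hz)) hz
      have hco : IsCoatom (R.subgroupOf W) := by
        refine PGrp.isCoatom_of_index_eq (p := p) ?_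
        haveI := (normal_subgroupOf_iff_le_normalizer k1.le).2 k2
        have h3 := relIndex_dvd_index_of_normal (R.subgroupOf (zpowers u ⊔ W)) (W.subgroupOf (zpowers u ⊔ W))
        rw [relIndex_subgroupOf le_sup_right, ← relIndex, k3] at h3
        exact ((Nat.dvd_prime hp.out).1 h3).resolve_left fun e => hzR (relIndex_eq_one.1 e hz)
      have h5 := h u hu z hz _ hco ⟨⟨_, hW'⟩, hR, rfl⟩
      have h6 : ((frattini (R.subgroupOf W)).map (R.subgroupOf W).subtype).map W.subtype ≤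
          (hc.hom R q).ker.map R.subtype := by
        rw [map_le_iff_le_comap, Solv.map_frattini_le_iff ((P.2.to_le hW.1).to_subgroup _)]
        refine ⟨commutator_le.2 fun a ha b hb => ⟨⁅(⟨a, ha⟩ : R), (⟨b, hb⟩ : R)⁆, ?_, rfl⟩,
          fun a ha => ⟨(⟨a, ha⟩ : R) ^ p, ?_, rfl⟩⟩
        · exact Abelianization.commutator_subset_ker _ (commutator_mem_commutator (mem_top _) (mem_top _))
        · rw [SetLike.mem_coe, MonoidHom.mem_ker, map_pow, hA]
      obtain ⟨r, hr, e⟩ := h6 h5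
      rw [← e]
      exact hr
    · rw [(k4 huR).2]
      exact hup _ fun y hy => smul_mem_orb (k4 huR).1 hy

/-- Tate's theorem: if `O^p(H) ∩ P ≠ O^p(G) ∩ P` for `P ≤ H`, this is seen in an elementary abelian
quotient of `H`. -/
theorem tate [Finite G] [hp : Fact p.Prime] (P : Sylow p G) {H : Subgroup G} (hPH : (P : Subgroup G) ≤ H)
    (h : ∀ (M : Subgroup H) [M.Normal], commutator H ≤ M → (∀ x : H, x ^ p ∈ M) →
      ∀ u : H, (u : G) ∈ (P : Subgroup G) → (u : G) ∈ pResidual p G → u ∈ M) :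
    pResidual p G ⊓ (P : Subgroup G) ≤ pResidualOf p H := by
  haveI := Transfer.pResidual_normal p G
  obtain ⟨V, hV⟩ : ∃ V, V = pResidual p G ⊓ (P : Subgroup G) := ⟨_, rfl⟩
  obtain ⟨U, hU⟩ : ∃ U, U = pResidualOf p H ⊓ (P : Subgroup G) := ⟨_, rfl⟩
  have hVP : V ≤ P := hV ▸ inf_le_right
  have hVN : V ≤ pResidual p G := hV ▸ inf_le_left
  have hUV : U ≤ V := by rw [hU, hV]; exact inf_le_inf_right _ (pResidualOf_le_pResidual p H)
  have hVp : IsPGroup p V := P.2.to_le hVP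
  have hPV : (P : Subgroup G) ≤ normalizer (V : Set G) := by
    rw [hV]; exact le_normalizer_inf (by rw [normalizer_eq_top]; exact le_top) le_normalizer
  have hPU : (P : Subgroup G) ≤ normalizer (U : Set G) := by
    rw [hU]; exact le_normalizer_inf (hPH.trans (le_normalizer_pResidualOf p H)) le_normalizer
  have hPF := Solv.le_normalizer_map_of_characteristic hPV (frattini V)
  have hPP := Solv.le_normalizer_map_of_characteristic (le_normalizer (H := (P : Subgroup G))) (frattini P)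
  have hPS := sylIn_of_sylow_le P hPH
  -- the subgroup `O^p(H) Φ(P)`
  have hM : ∀ x ∈ H, ∀ y ∈ H, x * y * x⁻¹ * y⁻¹ ∈ pResidualOf p H ⊔ (frattini P).map (P : Subgroup G).subtype ∧
      x ^ p ∈ pResidualOf p H ⊔ (frattini P).map (P : Subgroup G).subtype := by
    intro x hx y hy
    haveI := Transfer.pResidual_normal p H
    obtain ⟨a, ha, s, hs, rfl⟩ := hPS.exists_pResidualOf_mul hx
    obtain ⟨b, hb, t, ht, rfl⟩ := hPS.exists_pResidualOf_mul hy
    have key : ∀ v w : H, (v : H ⧸ pResidual p H) = w →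
        (w : G) ∈ (frattini P).map (P : Subgroup G).subtype →
        (v : G) ∈ pResidualOf p H ⊔ (frattini P).map (P : Subgroup G).subtype := fun v w e hw => by
      rw [QuotientGroup.eq_iff_div_mem] at e
      have : (v : G) = (v / w : H) * w := by simp
      rw [this]
      exact mul_mem (mem_sup_left (mem_map_of_mem _ e)) (mem_sup_right hw)
    obtain ⟨a, ha', rfl⟩ := ha
    obtain ⟨b, hb', rfl⟩ := hb
    have ea : (a : H ⧸ pResidual p H) = 1 := (QuotientGroup.eq_one_iff _).2 ha'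
    have eb : (b : H ⧸ pResidual p H) = 1 := (QuotientGroup.eq_one_iff _).2 hb'
    refine ⟨key (a * ⟨s, hPH hs⟩ * (b * ⟨t, hPH ht⟩) * (a * ⟨s, hPH hs⟩)⁻¹ * (b * ⟨t, hPH ht⟩)⁻¹)
      (⟨s, hPH hs⟩ * ⟨t, hPH ht⟩ * ⟨s, hPH hs⟩⁻¹ * ⟨t, hPH ht⟩⁻¹) (by simp only [QuotientGroup.mk_mul, QuotientGroup.mk_inv, ea, eb, one_mul]) ?_,
      key ((a * ⟨s, hPH hs⟩) ^ p) (⟨s, hPH hs⟩ ^ p) (by simp only [QuotientGroup.mk_mul, QuotientGroup.mk_pow, ea, one_mul]) (Solv.pow_mem_map_frattini P.2 hs)⟩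
    exact Solv.commutator_le_map_frattini P.2 (commutator_mem_commutator hs ht)
  have hc : commutator H ≤ (pResidualOf p H ⊔ (frattini P).map (P : Subgroup G).subtype).subgroupOf H :=
    commutator_le.2 fun x _ y _ => (hM x x.2 y y.2).1
  haveI : ((pResidualOf p H ⊔ (frattini P).map (P : Subgroup G).subtype).subgroupOf H).Normal :=
    ⟨fun n hn g => by
      have := mul_mem (hc (commutator_mem_commutator (mem_top g) (mem_top n))) hn
      simpa [commutatorElement_def] using this⟩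
  have h1 : V ≤ ⁅V, (P : Subgroup G)⁆ ⊔ (U ⊔ (frattini V).map V.subtype) := by
    intro v hv
    have h2 := h _ hc (fun x => (hM x x.2 x x.2).2) ⟨v, hPH (hVP hv)⟩ (hVP hv) (hVN hv)
    obtain ⟨a, ha, _, ⟨f, hf, rfl⟩, e⟩ := (mem_sup_of_le_normalizer_left (((map_subtype_le _).trans hPH).trans
      (le_normalizer_pResidualOf p H))).1 h2
    have e' : a * (f : G) = v := e
    have haU : a ∈ U := by
      rw [hU]
      refine ⟨ha, ?_⟩
      rw [← mul_inv_cancel_right a (f : G), e']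
      exact (P : Subgroup G).mul_mem (hVP hv) ((P : Subgroup G).inv_mem f.2)
    rw [← e']
    refine mul_mem (mem_sup_right (mem_sup_left haU)) ((sup_le_sup_left le_sup_right _ : _ ⊔ (frattini V).map V.subtype ≤ _) ?_)
    refine FTC.mem_of_mem_frattini P (pResidual p G) Transfer.pResidual_pResidual
      (W := ⁅V, (P : Subgroup G)⁆ ⊔ (frattini V).map V.subtype)
      (sup_le ((Solv.commutator_le_of_le_normalizer hPV).trans hVN) ((map_subtype_le _).trans hVN))
      (fun v h1 h2 x hx => mem_sup_left ?_)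
      (fun v h1 h2 => mem_sup_right (Solv.pow_mem_map_frattini hVp (hV ▸ ⟨h1, h2⟩))) ?_ ?_ hf
    · exact commutator_mem_commutator (show v ∈ V from hV ▸ ⟨h1, h2⟩) hx
    · exact Solv.le_normalizer_sup (Solv.le_normalizer_commutator hPV le_normalizer) hPF
    · rw [← inv_mul_cancel_left a (f : G), e']
      exact mul_mem (inv_mem (hVN (hUV haU))) (hVN hv)
  haveI := P.isPGroup'.isNilpotent
  have h2 := Transfer.le_of_le_commutator_sup hVP (Solv.le_normalizer_sup hPU hPF) h1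
  rw [← hV, ← Solv.eq_of_sup_map_frattini hUV h2, hU]
  exact inf_le_left

theorem hall_wielandt [Finite G] [hp : Fact p.Prime] (P : Sylow p G) {W : Subgroup G}
    (hW : IsWeaklyClosed W (P : Subgroup G))
    (h : ∀ x ∈ (P : Subgroup G), ∀ z ∈ W, ∀ W₀ : Subgroup W, IsCoatom W₀ →
      (fun y : G => y⁻¹ * z⁻¹ * y * z)^[p - 1] x ∈ W₀.map W.subtype →
      (fun y : G => y⁻¹ * z⁻¹ * y * z)^[p - 1] x ∈ ((frattini W₀).map W₀.subtype).map W.subtype) :
    pResidualOf p (normalizer (W : Set G)) = pResidual p G ⊓ normalizer (W : Set G) := by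
  haveI := Transfer.pResidual_normal p G
  have hPH : (P : Subgroup G) ≤ normalizer (W : Set G) := fun g hg =>
    mem_normalizer_iff_cj.2 (hW.2 g (cj_le_of_mem hg hW.1))
  have h1 := tate P hPH fun M _ k1 k2 u k3 k4 => by
    haveI := Normal.quotient_commutative_iff_commutator_le.2 k1
    letI : CommGroup (normalizer (W : Set G) ⧸ M) := { (inferInstance : Group _) with mul_comm := mul_comm' }
    refine (QuotientGroup.eq_one_iff _).1 (wielandt_aux P hW (QuotientGroup.mk' M) (fun a => ?_) h u k3 k4 u.2)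
    obtain ⟨a, rfl⟩ := QuotientGroup.mk_surjective a
    exact (QuotientGroup.eq_one_iff _).2 (k2 a)
  refine le_antisymm (le_inf (pResidualOf_le_pResidual p _) (pResidualOf_le p _)) ?_
  have hS := (sylIn_of_sylow_le P hPH).inf_normal (N := pResidual p G) (by rw [normalizer_eq_top (H := pResidual p G)]; exact le_top)
  rw [inf_comm, ← hS.pResidualOf_sup]
  exact sup_le (pResidualOf_mono inf_le_left) (by rw [inf_comm]; exact h1)

end Cfsg.Agent.FG.Coc
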