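import Cfsg.Agent.SolvStr.Subnormal
import Cfsg.Agent.SolvStr.Frattini

/-! Flavell's generalisation of Wielandt's zipper lemma (`flavell`) and the Guralnick–Tracey
form (`gt`). (helper3) -/

set_option autoImplicit false

namespace Cfsg.Agent.FG.Flav

open scoped Pointwise
open Subgroup SolvStr

universe u

theorem no_bridge {X : Type*} [Finite X] (Ω : Set X) (E : X → Set X)
    (ha : ∀ B ∈ Ω, B ∈ E B)
    (hd : ∀ B ∈ Ω, ∃ B₁ ∈ Ω, B₁ ≠ B ∧ E B₁ = E B)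
    (he : ∀ B ∈ Ω, ∃ C ∈ Ω, C ≠ B ∧ E C \ {C} = E B \ {B}) (B₀ : X) : B₀ ∉ Ω := by
  intro hB₀
  let S : X → Set X := fun B =>
    {C | Relation.ReflTransGen (fun C C' => E C' = E C ∨ (C ≠ B ∧ E C' \ {C'} = E C \ {C})) B C}
  have h1 : ∀ B ∈ Ω, ∀ C ∈ S B, B ∈ E C := by
    intro B hB C hC
    induction hC with
    | refl => exact ha B hB
    | tail _ hs ih =>
      rcases hs with hs | ⟨hne, hs⟩
      · rwa [hs]
      · have : B ∈ E _ \ {_} := ⟨ih, fun h => hne (Eq.symm h)⟩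
        rw [← hs] at this
        exact this.1
  obtain ⟨_, ⟨B, hB, rfl⟩, hmin⟩ :=
    (wellFounded_lt (α := Set X)).has_min (S '' Ω) ⟨_, B₀, hB₀, rfl⟩
  obtain ⟨B₁, hB₁, hne, hE⟩ := hd B hB
  obtain ⟨C, hC, hne', hE'⟩ := he B₁ hB₁
  have hB1 : B₁ ∈ S B := Relation.ReflTransGen.single (Or.inl hE)
  have hCB : C ∈ S B := Relation.ReflTransGen.tail hB1 (Or.inr ⟨hne, hE'⟩)
  have hBC : B ∉ S C := fun h => by
    have h2 : C ∈ E B₁ \ {B₁} := ⟨hE ▸ h1 C hC B h, hne'⟩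
    rw [← hE'] at h2
    exact h2.2 rfl
  refine hmin _ ⟨C, hC, rfl⟩ ⟨?_, fun h => hBC (h Relation.ReflTransGen.refl)⟩
  intro D hD
  induction hD with
  | refl => exact hCB
  | tail h0 hs ih =>
    refine Relation.ReflTransGen.tail ih ?_
    rcases hs with hs | ⟨_, hs⟩
    · exact Or.inl hs
    · exact Or.inr ⟨fun h => hBC (h ▸ h0), hs⟩

variable {G : Type*} [Group G]

theorem mem_norm_sSup [Finite G] {S : Set (Subgroup G)} {g : G}
    (h : ∀ B ∈ S, MulAut.conj g • B ∈ S) : g ∈ normalizer ((sSup S : Subgroup G) : Set G) := by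
  rw [← Solv.conj_smul_eq_self_iff]
  refine eq_of_le_of_card_ge ?_ (Solv.card_conj_smul g _).ge
  have : sSup S ≤ MulAut.conj g⁻¹ • sSup S := sSup_le fun B hB => by
    rw [← Solv.conj_inv_smul_conj_smul g B]
    exact Solv.conj_smul_mono _ (le_sSup (h B hB))
  have h2 := Solv.conj_smul_mono g this
  rwa [Solv.conj_smul_conj_inv_smul] at h2

theorem cj_le {B K : Subgroup G} (h : B ≤ K) {g : G} (hg : g ∈ normalizer (K : Set G)) :
    MulAut.conj g • B ≤ K := by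
  rw [← Solv.conj_smul_eq_self_iff.2 hg]; exact Solv.conj_smul_mono g h

theorem inv_cj_le_iff {B K : Subgroup G} {g : G} :
    MulAut.conj g⁻¹ • B ≤ K ↔ B ≤ MulAut.conj g • K := by
  constructor
  · intro h
    have := Solv.conj_smul_mono g h
    rwa [Solv.conj_smul_conj_inv_smul] at this
  · intro h
    have := Solv.conj_smul_mono g⁻¹ h
    rwa [Solv.conj_inv_smul_conj_smul] at this

theorem subn_cj_iff {B K : Subgroup G} {g : G} :
    SubnIn (MulAut.conj g • B) (MulAut.conj g • K) ↔ SubnIn B K :=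
  ⟨fun h => by
    have := h.conj g⁻¹
    rwa [Solv.conj_inv_smul_conj_smul, Solv.conj_inv_smul_conj_smul] at this, fun h => h.conj g⟩

theorem flavell [Finite G] (A : Subgroup G) (hA : ∀ N : Subgroup G, N.Normal → A ≤ N → N = ⊤)
    (h : ∀ K K' : Subgroup G, IsCoatom K → IsCoatom K' → A ≤ K → A ≤ K' → ¬ SubnIn A K →
      ¬ SubnIn A K' → K = K') :
    ∀ K K' : Subgroup G, IsCoatom K → IsCoatom K' → A ≤ K → A ≤ K' → K = K' := by
  induction hn : Nat.card G - Nat.card A using Nat.strong_induction_on generalizing A with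
  | _ n ih =>
  intro Ka Kb hKa hKb hAa hAb
  by_contra hab
  let Ω : Set (Subgroup G) := {B | ∃ g : G, B = MulAut.conj g • A}
  have hAΩ : A ∈ Ω := ⟨1, (Solv.conj_one_smul _).symm⟩
  have hΩc : ∀ B ∈ Ω, ∀ g : G, MulAut.conj g • B ∈ Ω := by
    rintro _ ⟨k, rfl⟩ g; exact ⟨g * k, Solv.conj_smul_conj_smul _ _ _⟩
  have hΩn : ∀ B ∈ Ω, ∀ N : Subgroup G, N.Normal → B ≤ N → N = ⊤ := by
    rintro _ ⟨k, rfl⟩ N hN hle
    refine hA N hN ?_
    have := cj_le hle (g := k⁻¹) (by rw [normalizer_eq_top]; trivial)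
    rwa [Solv.conj_inv_smul_conj_smul] at this
  have hΩh : ∀ B ∈ Ω, ∀ K K' : Subgroup G, IsCoatom K → IsCoatom K' → B ≤ K → B ≤ K' →
      ¬ SubnIn B K → ¬ SubnIn B K' → K = K' := by
    rintro _ ⟨k, rfl⟩ K K' hK hK' h1 h2 h3 h4
    have := h (MulAut.conj k⁻¹ • K) (MulAut.conj k⁻¹ • K') (isCoatom_conj_smul hK _)
      (isCoatom_conj_smul hK' _) (inv_cj_le_iff.1 (by rwa [inv_inv]))
      (inv_cj_le_iff.1 (by rwa [inv_inv]))
      (fun h5 => h3 (by have := h5.conj k; rwa [Solv.conj_smul_conj_inv_smul] at this))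
      (fun h5 => h4 (by have := h5.conj k; rwa [Solv.conj_smul_conj_inv_smul] at this))
    rw [← Solv.conj_smul_conj_inv_smul k K, this, Solv.conj_smul_conj_inv_smul]
  have hΩk : ∀ B ∈ Ω, Nat.card B = Nat.card A := by
    rintro _ ⟨k, rfl⟩; exact Solv.card_conj_smul _ _
  have U : ∀ B ∈ Ω, ∀ B' ∈ Ω, ∀ K K' : Subgroup G, IsCoatom K → IsCoatom K' → B ≤ K → B' ≤ K →
      ¬ SubnIn B K → ¬ SubnIn B' K → B ≤ K' → B' ≤ K' → K' ≠ K → B = B' := by
    intro B hB B' hB' K K' hK hK' h1 h2 h3 h4 h5 h6 hne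
    by_contra hBB
    have hlt : B < B ⊔ B' := left_lt_sup.2 fun hle =>
      hBB (eq_of_le_of_card_ge hle (by rw [hΩk B hB, hΩk B' hB'])).symm
    have hc : Nat.card A < Nat.card (B ⊔ B' : Subgroup G) := by
      rw [← hΩk B hB]
      refine lt_of_le_of_ne (card_le_of_le hlt.le) fun h7 => hlt.ne (eq_of_le_of_card_ge hlt.le h7.ge)
    have hc2 : Nat.card (B ⊔ B' : Subgroup G) ≤ Nat.card G := card_le_card_group _
    have key : ∀ K₁ : Subgroup G, IsCoatom K₁ → B ⊔ B' ≤ K₁ → ¬ SubnIn (B ⊔ B') K₁ → K₁ = K := by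
      intro K₁ hK₁ hle hs
      by_contra hne1
      refine hs (SubnIn.sup ?_ ?_)
      · by_contra h7
        exact hne1 (hΩh B hB K₁ K hK₁ hK (le_sup_left.trans hle) h1 h7 h3)
      · by_contra h7
        exact hne1 (hΩh B' hB' K₁ K hK₁ hK (le_sup_right.trans hle) h2 h7 h4)
    exact hne (ih _ (by omega) (B ⊔ B') (fun N hN hle => hΩn B hB N hN (le_sup_left.trans hle))
      (fun K₁ K₂ a b c d e f => (key K₁ a c e).trans (key K₂ b d f).symm) rfl K' K hK' hK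
      (sup_le h5 h6) (sup_le h1 h2))
  obtain ⟨_, ⟨K₁, K₂, hK₁, hK₂, h12, hA1, hA2, rfl⟩, hmax0⟩ :=
    (wellFounded_gt (α := Set (Subgroup G))).has_min
      {S | ∃ K K' : Subgroup G, IsCoatom K ∧ IsCoatom K' ∧ K ≠ K' ∧ A ≤ K ∧ A ≤ K' ∧
        S = {B | B ∈ Ω ∧ B ≤ K ∧ B ≤ K'}} ⟨_, Ka, Kb, hKa, hKb, hab, hAa, hAb, rfl⟩
  set S₀ : Set (Subgroup G) := {B | B ∈ Ω ∧ B ≤ K₁ ∧ B ≤ K₂} with hS₀
  set R : Subgroup G := sSup S₀ with hR
  have hAS : A ∈ S₀ := ⟨hAΩ, hA1, hA2⟩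
  have hR1 : R ≤ K₁ := sSup_le fun B hB => hB.2.1
  have hR2 : R ≤ K₂ := sSup_le fun B hB => hB.2.2
  have hSR : ∀ B, B ∈ S₀ ↔ B ∈ Ω ∧ B ≤ R :=
    fun B => ⟨fun hB => ⟨hB.1, le_sSup hB⟩, fun hB => ⟨hB.1, hB.2.trans hR1, hB.2.trans hR2⟩⟩
  have hmax : ∀ K K' : Subgroup G, IsCoatom K → IsCoatom K' → K ≠ K' → R ≤ K → R ≤ K' →
      ∀ B ∈ Ω, B ≤ K → B ≤ K' → B ∈ S₀ := by
    intro K K' hK hK' hne h1 h2 B hB h3 h4
    by_contra hn
    refine hmax0 _ ⟨K, K', hK, hK', hne, (le_sSup hAS).trans h1, (le_sSup hAS).trans h2, rfl⟩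
      ⟨fun C hC => ⟨hC.1, (le_sSup hC).trans h1, (le_sSup hC).trans h2⟩, fun h5 => hn (h5 ⟨hB, h3, h4⟩)⟩
  have hNR : normalizer (R : Set G) ≠ ⊤ := fun h1 =>
    hK₁.1 (top_le_iff.1 ((hA R (normalizer_eq_top_iff.1 h1) (le_sSup hAS)).symm.le.trans hR1))
  obtain ⟨K₀, hK₀, hNK⟩ := (eq_top_or_exists_le_coatom _).resolve_left hNR
  have hR0 : R ≤ K₀ := le_normalizer.trans hNK
  obtain ⟨M, hM, hRM, hM0⟩ : ∃ M : Subgroup G, IsCoatom M ∧ R ≤ M ∧ M ≠ K₀ := by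
    by_cases h1 : K₁ = K₀
    · exact ⟨K₂, hK₂, hR2, fun h2 => h12 (h1.trans h2.symm)⟩
    · exact ⟨K₁, hK₁, hR1, h1⟩
  have grow : ∀ (V W : Subgroup G) (T : Set (Subgroup G)), V ≤ W →
      (∀ B ∈ T, B ∈ Ω ∧ B ≤ V ∧ SubnIn B W) →
      V ≤ normalizer ((sSup T : Subgroup G) : Set G) ∧ (∀ B ∈ Ω, B ≤ V → SubnIn B W → B ∈ T) ∨
      ∃ X ∈ Ω, X ≤ V ∧ SubnIn X W ∧ X ∉ T ∧ X ≤ normalizer ((sSup T : Subgroup G) : Set G) := by
    intro V W T hVW hT
    have hc : ∀ B ∈ {B | B ∈ Ω ∧ B ≤ V ∧ SubnIn B W}, ∀ g ∈ V,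
        MulAut.conj g • B ∈ {B | B ∈ Ω ∧ B ≤ V ∧ SubnIn B W} := fun B hB g hg =>
      ⟨hΩc B hB.1 g, cj_le hB.2.1 (le_normalizer hg), hB.2.2.conj_of_mem (hVW hg)⟩
    by_cases h1 : T = {B | B ∈ Ω ∧ B ≤ V ∧ SubnIn B W}
    · left
      refine ⟨fun g hg => mem_norm_sSup fun B hB => ?_, fun B a b c => h1 ▸ ⟨a, b, c⟩⟩
      rw [h1] at hB ⊢
      exact hc B hB g hg
    · right
      obtain ⟨X, hX, h2, h3⟩ := exists_le_normalizer_sSup_in (V := V)
        (S := {B | B ∈ Ω ∧ B ≤ V ∧ SubnIn B W}) (S₀ := T)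
        (fun B hB => hB.2.2.mono hB.2.1 hVW) hc (Set.ssubset_iff_subset_ne.2 ⟨hT, h1⟩)
      exact ⟨X, hX.1, hX.2.1, hX.2.2, h2, h3⟩
  obtain ⟨A', hA'S, hA'n⟩ : ∃ A' ∈ S₀, ¬ SubnIn A' M := by
    by_contra h1
    push Not at h1
    rcases grow M M S₀ le_rfl (fun B hB => ⟨hB.1, (le_sSup hB).trans hRM, h1 B hB⟩) with
      ⟨h2, -⟩ | ⟨X, hX, h2, -, h3, h4⟩
    · exact hM0 ((hM.le_iff_eq hK₀.1).1 (h2.trans hNK)).symm
    · exact h3 (hmax M K₀ hM hK₀ hM0 hRM hR0 X hX h2 (h4.trans hNK))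
  have hA'R : A' ≤ R := le_sSup hA'S
  have hD1 : ∀ d ∈ M, d ∈ K₀ → ∀ B ∈ S₀, MulAut.conj d • B ∈ S₀ := fun d h1 h2 B hB =>
    hmax M K₀ hM hK₀ hM0 hRM hR0 _ (hΩc B hB.1 d)
      (cj_le ((le_sSup hB).trans hRM) (le_normalizer h1))
      (cj_le ((le_sSup hB).trans hR0) (le_normalizer h2))
  have hC : ∀ B ∈ S₀, B ≠ A' → SubnIn B M := fun B hB hne => by
    by_contra h1
    exact hne (U B hB.1 A' hA'S.1 M K₀ hM hK₀ ((le_sSup hB).trans hRM) (hA'R.trans hRM) h1 hA'n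
      ((le_sSup hB).trans hR0) (hA'R.trans hR0) hM0.symm)
  have hD2 : ∀ d ∈ M, d ∈ K₀ → d ∈ normalizer (A' : Set G) := fun d h1 h2 => by
    rw [← Solv.conj_smul_eq_self_iff]
    by_contra h3
    have := (hC _ (hD1 d h1 h2 A' hA'S) h3).conj_of_mem (M.inv_mem h1)
    rw [Solv.conj_inv_smul_conj_smul] at this
    exact hA'n this
  set J : Subgroup G := sSup (S₀ \ {A'}) with hJ
  have hJM : SubnIn J M := SubnIn.sSup fun B hB => hC B hB.1 hB.2
  have hJR : J ≤ R := sSup_le_sSup Set.diff_subset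
  have hRN : R ≤ normalizer (A' : Set G) := fun d hd => hD2 d (hRM hd) (hR0 hd)
  have hJm : ∀ B, B ∈ S₀ \ {A'} ↔ B ∈ Ω ∧ B ≤ J := fun B =>
    ⟨fun hB => ⟨hB.1.1, le_sSup hB⟩, fun hB => ⟨(hSR B).2 ⟨hB.1, hB.2.trans hJR⟩, fun h1 =>
      hA'n ((SubnIn.of_le_normalizer (h1 ▸ hB.2) (hJR.trans hRN)).trans hJM)⟩⟩
  have hRe : R = A' ⊔ J := by
    refine le_antisymm (sSup_le fun B hB => ?_) (sup_le hA'R hJR)
    by_cases h1 : B = A'
    · exact h1 ▸ le_sup_left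
    · exact (le_sSup (s := S₀ \ {A'}) ⟨hB, h1⟩).trans le_sup_right
  have hNJ : ∀ g ∈ normalizer (A' : Set G), g ∈ normalizer (J : Set G) →
      g ∈ normalizer (R : Set G) := fun g h1 h2 => by
    rw [← Solv.conj_smul_eq_self_iff] at h1 h2 ⊢
    rw [hRe, smul_sup, h1, h2]
  have hNA : normalizer (A' : Set G) ≤ M := fun g hg => by
    have h1 := Solv.conj_smul_eq_self_iff.2 hg
    have h2 := hΩh A' hA'S.1 (MulAut.conj g • M) M (isCoatom_conj_smul hM g) hM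
      (h1 ▸ Solv.conj_smul_mono g (hA'R.trans hRM)) (hA'R.trans hRM)
      (fun h3 => hA'n (subn_cj_iff.1 (h1.symm ▸ h3))) hA'n
    have h3 := Solv.conj_smul_eq_self_iff.1 h2
    rcases (hM.le_iff).1 (le_normalizer (H := M)) with h4 | h4
    · exact absurd (hΩn A' hA'S.1 M (normalizer_eq_top_iff.1 h4) (hA'R.trans hRM)) hM.1
    · rwa [h4] at h3
  have hN0 : normalizer (A' : Set G) ≤ K₀ := by
    rcases grow (normalizer (A' : Set G)) M (S₀ \ {A'}) hNA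
      (fun B hB => ⟨hB.1.1, (le_sSup hB.1).trans hRN, hC B hB.1 hB.2⟩) with
      ⟨h2, -⟩ | ⟨X, hX, h2, h5, h3, h4⟩
    · exact fun g hg => hNK (hNJ g hg (h2 hg))
    · refine absurd ⟨hmax M K₀ hM hK₀ hM0 hRM hR0 X hX h5.le
        fun g hg => hNK (hNJ g (h2 hg) (h4 hg)), fun h6 => hA'n (h6 ▸ h5)⟩ h3
  let E : Subgroup G → Set (Subgroup G) := fun B => {C | C ∈ Ω ∧ C ≤ normalizer (B : Set G)}
  have hΩi : ∀ (g : G) (C : Subgroup G), MulAut.conj g⁻¹ • C ∈ Ω ↔ C ∈ Ω := fun g C =>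
    ⟨fun h1 => by
      have := hΩc _ h1 g
      rwa [Solv.conj_smul_conj_inv_smul] at this, fun h1 => hΩc _ h1 _⟩
  have hEc : ∀ (g : G) (B C : Subgroup G), C ∈ E (MulAut.conj g • B) ↔
      MulAut.conj g⁻¹ • C ∈ E B := fun g B C => by
    simp only [E, Set.mem_setOf_eq, hΩi, Solv.normalizer_conj_smul, inv_cj_le_iff]
  have hne : ∀ (g : G) (B C : Subgroup G), C = MulAut.conj g • B ↔ MulAut.conj g⁻¹ • C = B :=
    fun g B C => ⟨fun h1 => by rw [h1, Solv.conj_inv_smul_conj_smul],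
      fun h1 => by rw [← h1, Solv.conj_smul_conj_inv_smul]⟩
  have hE : E A' = S₀ := Set.ext fun B =>
    ⟨fun hB => hmax M K₀ hM hK₀ hM0 hRM hR0 B hB.1 (hB.2.trans hNA) (hB.2.trans hN0),
      fun hB => ⟨hB.1, (le_sSup hB).trans hRN⟩⟩
  have hinv : ∀ (L : Subgroup G) (g : G), g ∈ normalizer (L : Set G) → ∀ C : Subgroup G,
      (MulAut.conj g⁻¹ • C ∈ Ω ∧ MulAut.conj g⁻¹ • C ≤ L ↔ C ∈ Ω ∧ C ≤ L) := fun L g hg C => by
    rw [hΩi, inv_cj_le_iff, Solv.conj_smul_eq_self_iff.2 hg]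
  have he0 : ∃ C ∈ Ω, C ≠ A' ∧ E C \ {C} = E A' \ {A'} := by
    obtain ⟨y, hy1, hy2⟩ : ∃ y ∈ normalizer (J : Set G), y ∉ normalizer (A' : Set G) := by
      by_contra h1
      push Not at h1
      rcases grow M M (S₀ \ {A'}) le_rfl
        (fun B hB => ⟨hB.1.1, (le_sSup hB.1).trans hRM, hC B hB.1 hB.2⟩) with
        ⟨h2, -⟩ | ⟨X, hX, h2, h5, h3, h4⟩
      · exact hA'n (SubnIn.of_le_normalizer (hA'R.trans hRM) fun g hg => h1 g (h2 hg))
      · refine h3 ⟨hE ▸ ⟨hX, fun g hg => h1 g (h4 hg)⟩, fun h6 => hA'n (h6 ▸ h5)⟩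
    refine ⟨_, hΩc A' hA'S.1 y, fun h1 => hy2 (Solv.conj_smul_eq_self_iff.1 h1), ?_⟩
    ext C
    rw [hE, hJm, ← hinv J y hy1, ← hJm, Set.mem_diff, Set.mem_diff, hEc, hE,
      Set.mem_singleton_iff, Set.mem_singleton_iff, hne]
  have hd0 : ∃ C ∈ Ω, C ≠ A' ∧ E C = E A' := by
    by_cases h0 : ∃ A'' ∈ S₀, ¬ SubnIn A'' K₀
    · obtain ⟨A'', hS, hn⟩ := h0
      have hle : A'' ≤ R := le_sSup hS
      refine ⟨A'', hS.1, fun h1 => hM0 (hΩh A' hA'S.1 M K₀ hM hK₀ (hA'R.trans hRM)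
        (hA'R.trans hR0) hA'n (h1 ▸ hn)), ?_⟩
      have h1 : normalizer (A' : Set G) ≤ normalizer (A'' : Set G) := fun g hg => by
        rw [← Solv.conj_smul_eq_self_iff]
        have h2 := hD1 g (hNA hg) (hN0 hg) A'' hS
        refine U _ h2.1 A'' hS.1 K₀ M hK₀ hM ((le_sSup h2).trans hR0) (hle.trans hR0) (fun h3 => ?_)
          hn ((le_sSup h2).trans hRM) (hle.trans hRM) hM0
        have := h3.conj_of_mem (K₀.inv_mem (hN0 hg))
        rw [Solv.conj_inv_smul_conj_smul] at this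
        exact hn this
      have h2 : normalizer (A' : Set G) = normalizer (A'' : Set G) := by
        refine eq_of_le_of_card_ge h1 ?_
        obtain ⟨k, hk⟩ := hS.1
        obtain ⟨k', hk'⟩ := hA'S.1
        rw [hk, hk', Solv.normalizer_conj_smul, Solv.normalizer_conj_smul, Solv.card_conj_smul,
          Solv.card_conj_smul]
      simp only [E, h2]
    · push Not at h0
      obtain ⟨y, hy1, hy2⟩ : ∃ y ∈ normalizer (R : Set G), y ∉ normalizer (A' : Set G) := by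
        by_contra h1
        push Not at h1
        rcases grow K₀ K₀ S₀ le_rfl
          (fun B hB => ⟨hB.1, (le_sSup hB).trans hR0, h0 B hB⟩) with
          ⟨h2, -⟩ | ⟨X, hX, h2, h5, h3, h4⟩
        · exact hM0 ((hK₀.le_iff_eq hM.1).1 fun g hg => hNA (h1 g (h2 hg)))
        · exact h3 (hE ▸ ⟨hX, fun g hg => h1 g (h4 hg)⟩)
      refine ⟨_, hΩc A' hA'S.1 y, fun h1 => hy2 (Solv.conj_smul_eq_self_iff.1 h1), ?_⟩
      ext C
      rw [hEc, hE, hSR, hSR, hinv R y hy1]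
  have hrep : ∀ B ∈ Ω, ∃ g : G, B = MulAut.conj g • A' := by
    rintro _ ⟨k, rfl⟩
    obtain ⟨k', hk'⟩ := hA'S.1
    exact ⟨k * k'⁻¹, by rw [hk', Solv.conj_smul_conj_smul, inv_mul_cancel_right]⟩
  refine no_bridge Ω E (fun B hB => ⟨hB, le_normalizer⟩) (fun B hB => ?_) (fun B hB => ?_) A hAΩ
  · obtain ⟨g, rfl⟩ := hrep B hB
    obtain ⟨C, hC1, hC2, hC3⟩ := hd0
    refine ⟨_, hΩc C hC1 g, fun h1 => hC2 ?_, Set.ext fun X => by rw [hEc, hEc, hC3]⟩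
    rw [hne, Solv.conj_inv_smul_conj_smul] at h1
    exact h1
  · obtain ⟨g, rfl⟩ := hrep B hB
    obtain ⟨C, hC1, hC2, hC3⟩ := he0
    refine ⟨_, hΩc C hC1 g, fun h1 => hC2 ?_, Set.ext fun X => ?_⟩
    · rw [hne, Solv.conj_inv_smul_conj_smul] at h1
      exact h1
    · have := Set.ext_iff.1 hC3 (MulAut.conj g⁻¹ • X)
      simp only [Set.mem_diff, Set.mem_singleton_iff] at this ⊢
      rw [hEc, hEc, hne, hne]
      exact this

/-- `A` is contranormal in `H`. -/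
def Contra (A H : Subgroup G) : Prop :=
  A ≤ H ∧ ∀ N : Subgroup G, A ≤ N → N ≤ H → H ≤ normalizer (N : Set G) → N = H

theorem contra_iff {A H : Subgroup G} (h : A ≤ H) :
    Contra A H ↔ normalClosure ((A.subgroupOf H : Subgroup H) : Set H) = ⊤ := by
  constructor
  · intro hc
    have := hc.2 ((normalClosure ((A.subgroupOf H : Subgroup H) : Set H)).map H.subtype)
      (fun a ha => ⟨⟨a, h ha⟩, subset_normalClosure (by exact ha), rfl⟩) (map_subtype_le _) (by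
        have := le_normalizer_map (H := normalClosure ((A.subgroupOf H : Subgroup H) : Set H))
          H.subtype
        rwa [normalizer_eq_top, ← MonoidHom.range_eq_map, range_subtype] at this)
    rw [eq_top_iff]
    intro x _
    obtain ⟨y, hy, hyx⟩ : (x : G) ∈ (normalClosure ((A.subgroupOf H : Subgroup H) : Set H)).map
      H.subtype := by rw [this]; exact x.2
    rwa [← Subtype.ext hyx]
  · intro hc
    refine ⟨h, fun N h1 h2 h3 => le_antisymm h2 fun x hx => ?_⟩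
    haveI : (N.subgroupOf H).Normal := (normal_subgroupOf_iff_le_normalizer h2).2 h3
    have : normalClosure ((A.subgroupOf H : Subgroup H) : Set H) ≤ N.subgroupOf H :=
      normalClosure_le_normal fun y hy => h1 hy
    rw [hc] at this
    exact this (mem_top (⟨x, hx⟩ : H))

theorem exists_contra [Finite G] {A M : Subgroup G} (h : A ≤ M) :
    ∃ H : Subgroup G, Contra A H ∧ SubnIn H M := by
  obtain ⟨H, ⟨h1, h2⟩, hmin⟩ := (wellFounded_lt (α := Subgroup G)).has_min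
    {H | A ≤ H ∧ SubnIn H M} ⟨M, h, SubnIn.refl M⟩
  refine ⟨H, ⟨h1, fun N a b c => ?_⟩, h2⟩
  by_contra hne
  exact hmin N ⟨a, (SubnIn.of_le_normalizer b c).trans h2⟩ (lt_of_le_of_ne b hne)

theorem gt [Finite G] (A : Subgroup G) (hA : ∀ N : Subgroup G, N.Normal → A ≤ N → N = ⊤)
    (M₀ : Subgroup G) (hM₀ : M₀ ≠ ⊤) (hY : ∀ H : Subgroup G, H ≠ ⊤ → Contra A H → H ≤ M₀) :
    ∀ K K' : Subgroup G, IsCoatom K → IsCoatom K' → A ≤ K → A ≤ K' → K = K' := by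
  obtain ⟨M, hM, hle⟩ := (eq_top_or_exists_le_coatom _).resolve_left hM₀
  induction A using WellFoundedGT.induction with
  | ind A ih =>
  have key : ∀ K : Subgroup G, IsCoatom K → A ≤ K → ¬ SubnIn A K → K = M := by
    intro K hK hAK hn
    obtain ⟨H, h1, h2⟩ := exists_contra hAK
    have hH : H ≠ ⊤ := fun h3 => hK.1 (top_le_iff.1 (h3 ▸ h2.le))
    have hlt : A < H := lt_of_le_of_ne h1.1 fun h3 => hn (h3 ▸ h2)
    refine ih H hlt (fun N hN h3 => hA N hN (h1.1.trans h3)) (fun H' h3 h4 => hY H' h3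
      ⟨h1.1.trans h4.1, fun N a b c => h4.2 N ?_ b c⟩) K M hK hM h2.le ((hY H hH h1).trans hle)
    have := h1.2 (N ⊓ H) (le_inf a h1.1) inf_le_right fun g hg =>
      inf_normalizer_le_normalizer_inf (H := N) (K := H) ⟨c (h4.1 hg), le_normalizer hg⟩
    exact this ▸ inf_le_left
  exact flavell A hA fun K K' a b c d e f => (key K a c e).trans (key K' b d f).symm

end Cfsg.Agent.FG.Flav
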