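import Cfsg.Agent.Loc.Rk1
import Cfsg.Agent.Solv.MinNormal
import Cfsg.Agent.Gen2.FrobCompl
import Cfsg.Agent.FTC.Aniso

/-! Normal subgroups whose non-central elements have maximal centralizers. (helper3) -/

set_option autoImplicit false

namespace Cfsg.Agent.FG.MaxCent

open Subgroup Cfsg.Agent.Loc

variable {G : Type*} [Group G]

theorem dec {M L : Subgroup G} (hM : IsCoatom M) (hn : M ≤ normalizer (L : Set G)) (h : ¬ L ≤ M)
    (g : G) : ∃ m ∈ M, ∃ l ∈ L, m * l = g := by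
  rw [← mem_sup_of_le_normalizer_right hn, hM.2 _ (left_lt_sup.2 h)]; trivial

theorem normal_of {M L D : Subgroup G} (hM : IsCoatom M) (h : ¬ L ≤ M)
    (h1 : M ≤ normalizer (D : Set G)) (h2 : L ≤ normalizer (D : Set G)) : D.Normal :=
  normal_of_top_le_normalizer (hM.2 _ (left_lt_sup.2 h) ▸ sup_le h1 h2)

theorem exists_E [Finite G] (N Z : Subgroup G) [N.Normal] [Z.Normal] (hZN : Z ≤ N) (hne : ¬ N ≤ Z)
    (h : ∀ x ∈ N, x ∉ Z → IsCoatom (centralizer ({x} : Set G))) :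
    ∃ (E : Subgroup G) (p : ℕ), p.Prime ∧ E.Normal ∧ Z ≤ E ∧ E ≤ N ∧ ¬ E ≤ Z ∧
      (∀ a ∈ E, ∀ b ∈ E, a * b * a⁻¹ * b⁻¹ ∈ Z) ∧ (∀ a ∈ E, a ^ p ∈ Z) ∧
      ∀ D : Subgroup G, D.Normal → Z ≤ D → D ≤ E → D ≤ Z ∨ E ≤ D := by
  let f := QuotientGroup.mk' Z
  have hf : Function.Surjective f := QuotientGroup.mk'_surjective Z
  have hk : ∀ x, f x = 1 ↔ x ∈ Z := fun x => QuotientGroup.eq_one_iff x
  haveI : (N.map f).Normal := Normal.map ‹_› f hf
  obtain ⟨S, hS, hS0, hSN, hSs⟩ : ∃ S : Subgroup (G ⧸ Z), S.Normal ∧ S ≠ ⊥ ∧ S ≤ N.map f ∧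
      Group.IsSolvable S := by
    by_cases ho : Odd (Nat.card (N.map f))
    · exact ⟨N.map f, inferInstance, fun h0 => hne fun x hx => (hk x).1
        (mem_bot.1 (h0 ▸ mem_map_of_mem f hx)), le_rfl, FTC.solvable_of_odd ho⟩
    by_cases hc : ∃ x ∈ N.map f, x ≠ 1 ∧ (zpowers x).Normal
    · obtain ⟨x, hx, h1, h2⟩ := hc
      exact ⟨zpowers x, h2, by simpa using h1, zpowers_le.2 hx,
        isSolvable_of_comm fun a b => IsMulCommutative.is_comm.comm a b⟩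
    push Not at hc
    have hcomm : ∀ s ∈ {t | t ∈ N.map f ∧ t * t = 1}, ∀ t ∈ {t | t ∈ N.map f ∧ t * t = 1},
        s * t = t * s := by
      rintro s ⟨hs, hs2⟩ t ⟨ht, ht2⟩
      have hsi : s⁻¹ = s := inv_eq_of_mul_eq_one_right hs2
      have hti : t⁻¹ = t := inv_eq_of_mul_eq_one_right ht2
      by_cases h1 : s * t = 1
      · rw [h1, ← hsi, ← hti, ← mul_inv_rev, h1, inv_one]
      obtain ⟨x, hx, hxe⟩ := mul_mem hs ht
      have hM := h x hx fun h2 => h1 (hxe ▸ (hk x).2 h2)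
      have hle : centralizer ({x} : Set G) ≤ (normalizer (zpowers (s * t) : Set (G ⧸ Z))).comap f :=
        fun g hg => le_normalizer_of_le_centralizer (K := centralizer {s * t})
          (centralizer_zpowers _).ge (mem_centralizer_singleton_iff.2 (by
            rw [← hxe, ← map_mul, ← map_mul, mem_centralizer_singleton_iff.1 hg]))
      rcases (hM.le_iff).1 hle with h2 | h2
      · refine absurd (normal_of_top_le_normalizer fun g _ => ?_) (hc _ (mul_mem hs ht) h1)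
        obtain ⟨g, rfl⟩ := hf g
        exact (h2.ge (mem_top g) :)
      · obtain ⟨g, rfl⟩ := hf s
        have h3 : g ∈ (normalizer (zpowers (f g * t) : Set (G ⧸ Z))).comap f := by
          rw [mem_comap, mem_normalizer_iff_cj, cj_zpowers, ← zpowers_inv]
          congr 1
          rw [mul_inv_rev, mul_inv_rev, inv_inv, mul_inv_rev, hsi, hti, mul_assoc t, hs2, mul_one]
        rw [h2, mem_centralizer_singleton_iff] at h3
        have h4 := congrArg f h3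
        rw [map_mul, map_mul, hxe, mul_assoc] at h4
        exact mul_left_cancel h4
    refine ⟨closure {t | t ∈ N.map f ∧ t * t = 1}, normal_of_cj_le fun g => ?_, fun h0 => ?_,
      (closure_le _).2 fun t ht => ht.1, ?_⟩
    · rw [cj_closure]
      refine closure_mono ?_
      rintro _ ⟨t, ht, rfl⟩
      refine ⟨Normal.conj_mem ‹_› t ht.1 g, ?_⟩
      calc g * t * g⁻¹ * (g * t * g⁻¹) = g * (t * t) * g⁻¹ := by group
        _ = 1 := by rw [ht.2]; simp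
    · haveI := Fact.mk Nat.prime_two
      obtain ⟨t, ht⟩ := exists_prime_orderOf_dvd_card' (G := N.map f) 2
        (even_iff_two_dvd.1 (Nat.not_odd_iff_even.1 ho))
      have h1 : (t : G ⧸ Z) ∈ closure {t | t ∈ N.map f ∧ t * t = 1} := subset_closure ⟨t.2, by
        rw [← sq, ← ht]; exact congrArg Subtype.val (pow_orderOf_eq_one t)⟩
      rw [h0, mem_bot, OneMemClass.coe_eq_one] at h1
      rw [h1, orderOf_one] at ht
      exact absurd ht (by norm_num)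
    · haveI := isMulCommutative_closure hcomm
      exact isSolvable_of_comm fun a b => IsMulCommutative.is_comm.comm a b
  obtain ⟨p, M, hp, hM, a, b, c, d, -, e⟩ := Solv.exists_normal_elementary_le S hS0
  refine ⟨M.comap f, p, hp, hM.comap f, fun z hz => ?_, fun x hx => ?_, fun h1 => a ?_,
    fun x hx y hy => ?_, fun x hx => ?_, fun D hD h1 h2 => ?_⟩
  · rw [mem_comap, (hk z).2 hz]; exact one_mem _
  · obtain ⟨y, hy, hxy⟩ := hSN (b hx)
    have : y⁻¹ * x ∈ Z := QuotientGroup.eq.1 hxy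
    exact (mul_mem_cancel_left (inv_mem hy)).1 (hZN this)
  · rw [eq_bot_iff]
    intro x hx
    obtain ⟨x, rfl⟩ := hf x
    exact (hk x).2 (h1 hx)
  · have : f x * f y = f y * f x := congrArg Subtype.val (c.is_comm.comm ⟨_, hx⟩ ⟨_, hy⟩)
    rw [← hk, map_mul, map_mul, map_mul, this]; simp
  · rw [← hk, map_pow]; exact d _ hx
  · rcases e (D.map f) (hD.map f hf) (map_le_iff_le_comap.2 h2) with h3 | h3
    · exact Or.inl fun x hx => (hk x).1 (mem_bot.1 (h3 ▸ mem_map_of_mem f hx))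
    · refine Or.inr fun x hx => ?_
      obtain ⟨y, hy, hxy⟩ : f x ∈ D.map f := h3.symm ▸ hx
      have : y⁻¹ * x ∈ Z := QuotientGroup.eq.1 hxy
      exact (mul_mem_cancel_left (inv_mem hy)).1 (h1 this)

theorem comm_all {N C W : Subgroup G} [hW : W.Normal] {y : G} (hy : y ∈ N) (hyC : y ∉ C)
    (h : ∀ n ∈ N, ∀ x ∈ N, x ∉ C → n * x * n⁻¹ * x⁻¹ ∈ W) :
    ∀ n ∈ N, ∀ x ∈ N, n * x * n⁻¹ * x⁻¹ ∈ W := by
  intro n hn x hx
  by_cases hxC : x ∈ C
  · have h1 := h n hn (x * y) (mul_mem hx hy) fun h2 => hyC ((mul_mem_cancel_left hxC).1 h2)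
    have h2 := hW.conj_mem _ (inv_mem (h n hn y hy hyC)) x
    have := mul_mem h1 h2
    convert this using 1; group
  · exact h n hn x hx hxC

theorem id1' (m e d : G) (h : e * d = d * e) :
    m * e * d * (m * e)⁻¹ * d⁻¹ = m * d * m⁻¹ * d⁻¹ := by
  rw [mul_assoc m, h]; group

theorem main [Finite G] (N Z : Subgroup G) [hN : N.Normal]
    (hZ : ∀ x, x ∈ Z ↔ x ∈ N ∧ ∀ n ∈ N, n * x = x * n)
    (h : ∀ x ∈ N, x ∉ Z → IsCoatom (centralizer ({x} : Set G))) :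
    (∃ p : ℕ, p.Prime ∧ (∀ a ∈ N, ∀ b ∈ N, a * b * a⁻¹ * b⁻¹ ∈ Z) ∧ ∀ a ∈ N, a ^ p ∈ Z) ∨
    ∃ (E : Subgroup G) (p r : ℕ) (y : G), p.Prime ∧ r.Prime ∧ E.Normal ∧ Z ≤ E ∧ E ≤ N ∧ ¬ E ≤ Z ∧
      (∀ a ∈ E, ∀ b ∈ E, a * b = b * a) ∧ (∀ a ∈ E, a ^ p ∈ Z) ∧ y ∈ N ∧ y ∉ E ∧ y ^ r ∈ Z ∧
      N ≤ zpowers y ⊔ E ∧ ∀ n ∈ N, n ∉ E → ∀ e ∈ E, e * n * e⁻¹ * n⁻¹ ∈ Z → e ∈ Z := by
  have hZN : Z ≤ N := fun x hx => ((hZ x).1 hx).1
  haveI hZn : Z.Normal := ⟨fun z hz g => (hZ _).2 ⟨hN.conj_mem z (hZN hz) g, fun n hn => by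
    have := ((hZ z).1 hz).2 _ (hN.conj_mem n hn g⁻¹)
    calc n * (g * z * g⁻¹) = g * (g⁻¹ * n * g⁻¹⁻¹ * z) * g⁻¹ := by group
      _ = _ := by rw [this]; group⟩⟩
  by_cases hne : N ≤ Z
  · exact Or.inl ⟨2, Nat.prime_two, fun a ha b hb => hne (mul_mem (mul_mem (mul_mem ha hb)
      (inv_mem ha)) (inv_mem hb)), fun a ha => hne (pow_mem ha 2)⟩
  obtain ⟨E, p, hp, hE, hZE, hEN, hEZ, hEc, hEp, hmin⟩ := exists_E N Z hZN hne h
  have nt : ∀ (L X : Subgroup G) [L.Normal], X ≤ normalizer (L : Set G) := fun L X _ => by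
    rw [normalizer_eq_top]; exact le_top
  have hNM : ∀ x ∈ N, x ∉ Z → ¬ N ≤ centralizer ({x} : Set G) := fun x hx h1 h2 =>
    h1 ((hZ x).2 ⟨hx, fun n hn => mem_centralizer_singleton_iff.1 (h2 hn)⟩)
  let C := centralizer (E : Set G)
  have hZC : Z ≤ C := fun z hz => mem_centralizer_iff.2 fun e he => ((hZ z).1 hz).2 e (hEN he)
  have hEM : ∀ y, y ∉ C → ¬ E ≤ centralizer ({y} : Set G) := fun y h1 h2 =>
    h1 (mem_centralizer_iff.2 fun e he => mem_centralizer_singleton_iff.1 (h2 he))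
  have hD : ∀ y ∈ N, y ∉ C → (∀ e ∈ E, e * y * e⁻¹ * y⁻¹ ∈ Z → e ∈ Z) ∨
      ∀ e ∈ E, e * y * e⁻¹ * y⁻¹ ∈ Z := fun y hy hyC => by
    let D : Subgroup G := E ⊓ (centralizer {(y : G ⧸ Z)}).comap (QuotientGroup.mk' Z)
    have hm : ∀ e, e ∈ D ↔ e ∈ E ∧ e * y * e⁻¹ * y⁻¹ ∈ Z := fun e => by
      refine and_congr_right fun _ => ?_
      rw [← QuotientGroup.eq_one_iff]
      show (e : G ⧸ Z) ∈ centralizer {(y : G ⧸ Z)} ↔ _
      rw [mem_centralizer_singleton_iff, QuotientGroup.mk_mul, QuotientGroup.mk_mul,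
        QuotientGroup.mk_mul, QuotientGroup.mk_inv, QuotientGroup.mk_inv, mul_inv_eq_one,
        mul_inv_eq_iff_eq_mul]
    have hZD : Z ≤ D := fun z hz => (hm z).2 ⟨hZE hz, by
      rw [← ((hZ z).1 hz).2 y hy]; simpa using one_mem _⟩
    have hDn : D.Normal := normal_of (h y hy fun h1 => hyC (hZC h1)) (hEM y hyC)
      (le_normalizer_of_cj_le fun g hg => cj_le_iff_forall.2 fun e he => (hm _).2
        ⟨hE.conj_mem e he.1 g, by
          have h1 := mem_centralizer_singleton_iff.1 hg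
          have h2 : g⁻¹ * y * g = y := by rw [mul_assoc, ← h1]; group
          have := hZn.conj_mem _ ((hm e).1 he).2 g
          convert this using 1
          conv_rhs => rw [← h2]
          group⟩)
      (le_normalizer_of_cj_le fun g hg => cj_le_iff_forall.2 fun e he => by
        have := D.mul_mem (hZD (hEc g hg e he.1)) he
        simpa using this)
    rcases hmin D hDn hZD inf_le_left with h1 | h1
    · exact Or.inl fun e he h2 => h1 ((hm e).2 ⟨he, h2⟩)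
    · exact Or.inr fun e he => ((hm e).1 (h1 he)).2
  have B1 : ∀ y ∈ N, y ∉ C → ∀ e ∈ E, e * y = y * e → e ∈ Z := fun y hy hyC => by
    have hZD : Z ≤ E ⊓ centralizer {y} := fun z hz =>
      ⟨hZE hz, mem_centralizer_singleton_iff.2 (((hZ z).1 hz).2 y hy).symm⟩
    have hDn : (E ⊓ centralizer {y} : Subgroup G).Normal :=
      normal_of (h y hy fun h1 => hyC (hZC h1)) (hEM y hyC)
      (le_normalizer_inf (nt _ _) le_normalizer)
      (le_normalizer_of_cj_le fun g hg => cj_le_iff_forall.2 fun e he => by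
        have := mul_mem (hZD (hEc g hg e he.1)) he
        simpa using this)
    rcases hmin _ hDn hZD inf_le_left with h1 | h1
    · exact fun e he h2 => h1 ⟨he, mem_centralizer_singleton_iff.2 h2⟩
    · exact absurd (h1.trans inf_le_right) (hEM y hyC)
  have B2 : E ≤ C := fun y hy => by
    by_contra h1
    exact h1 (hZC (B1 y (hEN hy) h1 y hy rfl))
  have B3 : ∀ y ∈ N, y ∉ C → ∀ n ∈ N, ∃ m ∈ N, m * y = y * m ∧ ∃ e ∈ E, m * e = n :=
    fun y hy hyC n hn => by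
      obtain ⟨m, hm, e, he, rfl⟩ := dec (h y hy fun h1 => hyC (hZC h1)) (nt E _) (hEM y hyC) n
      exact ⟨m, (mul_mem_cancel_right (hEN he)).1 hn, mem_centralizer_singleton_iff.1 hm, e, he, rfl⟩
  have id1 : ∀ m e y : G, m * y = y * m →
      m * e * y * (m * e)⁻¹ * y⁻¹ = m * (e * y * e⁻¹ * y⁻¹) * m⁻¹ := fun m e y h1 => by
    calc m * e * y * (m * e)⁻¹ * y⁻¹ = m * (e * y * e⁻¹) * (y * m)⁻¹ := by group
      _ = _ := by rw [← h1]; group
  obtain ⟨e₀, he₀, he₀Z⟩ := SetLike.not_le_iff_exists.1 hEZ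
  obtain ⟨y₀, hy₀, hy₀C⟩ : ∃ y ∈ N, y ∉ C := by
    by_contra h1
    push Not at h1
    exact he₀Z ((hZ _).2 ⟨hEN he₀, fun n hn => (mem_centralizer_iff.1 (h1 n hn) e₀ he₀).symm⟩)
  have B4 : ∀ n ∈ N, ∀ x ∈ N, n * x * n⁻¹ * x⁻¹ ∈ E := comm_all hy₀ hy₀C fun n hn x hx hxC => by
    obtain ⟨m, -, h1, e, he, rfl⟩ := B3 x hx hxC n hn
    rw [id1 m e x h1]
    refine hE.conj_mem _ ?_ m
    have := mul_mem he (hE.conj_mem _ (inv_mem he) x)
    convert this using 1; group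
  have B5 : ∀ W : Subgroup G, W.Normal → W ≤ N → ¬ W ≤ C → ∀ n ∈ N, ∃ c ∈ N ⊓ C, ∃ w ∈ W,
      c * w = n := fun W _ hWN hWC n hn => by
    have h1 : ∀ m ∈ N, m ∈ centralizer ({e₀} : Set G) → m ∈ C := fun m hm h1 => by
      by_contra h2
      exact he₀Z (B1 m hm h2 e₀ he₀ (mem_centralizer_singleton_iff.1 h1).symm)
    obtain ⟨m, hm, w, hw, rfl⟩ := dec (h e₀ (hEN he₀) he₀Z) (nt W _)
      (fun h2 => hWC fun w hw => h1 w (hWN hw) (h2 hw)) n
    have h2 := (mul_mem_cancel_right (hWN hw)).1 hn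
    exact ⟨m, ⟨h2, h1 m h2 hm⟩, w, hw, rfl⟩
  by_cases hc : ∃ y ∈ N, y ∉ C ∧ ∀ e ∈ E, e * y * e⁻¹ * y⁻¹ ∈ Z
  · left
    obtain ⟨y, hy, hyC, hyE⟩ := hc
    let f := QuotientGroup.mk' Z
    have hk : ∀ x, f x = 1 ↔ x ∈ Z := fun x => QuotientGroup.eq_one_iff x
    haveI : (E.map f).Normal := hE.map f (QuotientGroup.mk'_surjective Z)
    let W := N ⊓ (centralizer (E.map f : Set (G ⧸ Z))).comap f
    have hW : ∀ n, n ∈ W ↔ n ∈ N ∧ ∀ e ∈ E, e * n * e⁻¹ * n⁻¹ ∈ Z := fun n => by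
      refine and_congr_right fun _ => ?_
      show f n ∈ centralizer _ ↔ _
      rw [mem_centralizer_iff]
      constructor
      · intro h1 e he
        rw [← hk, map_mul, map_mul, map_mul, h1 _ (mem_map_of_mem f he)]; simp
      · rintro h1 _ ⟨e, he, rfl⟩
        have := (hk _).2 (h1 e he)
        rwa [map_mul, map_mul, map_mul, map_inv, map_inv, mul_inv_eq_one,
          mul_inv_eq_iff_eq_mul] at this
    have h1 : ∀ n ∈ N, ∀ e ∈ E, e * n * e⁻¹ * n⁻¹ ∈ Z := fun n hn => by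
      obtain ⟨c, hc, w, hw, rfl⟩ := B5 W inferInstance inf_le_left
        (fun h1 => hyC (h1 ((hW y).2 ⟨hy, hyE⟩))) n hn
      refine ((hW _).1 (mul_mem ((hW c).2 ⟨hc.1, fun e he => ?_⟩) hw)).2
      rw [mem_centralizer_iff.1 hc.2 e he]; simpa using one_mem _
    have h2 : ∀ n ∈ N, ∀ x ∈ N, n * x * n⁻¹ * x⁻¹ ∈ Z := comm_all hy hyC fun n hn x hx hxC => by
      obtain ⟨m, -, h2, e, he, rfl⟩ := B3 x hx hxC n hn
      rw [id1 m e x h2]
      exact hZn.conj_mem _ (h1 x hx e he) m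
    have h3 : ∀ x ∈ N, x ∉ C → x ^ p ∈ Z := fun x hx hxC => (hZ _).2 ⟨pow_mem hx p, fun n hn => by
      obtain ⟨m, -, h2, e, he, rfl⟩ := B3 x hx hxC n hn
      have h4 : Commute m (x ^ p) := (show Commute m x from h2).pow_right p
      have hz := h1 x hx e he
      generalize hw : e * x * e⁻¹ * x⁻¹ = w at hz
      have c1 : Commute w x := (((hZ w).1 hz).2 x hx).symm
      have c2 : Commute w e⁻¹ := (((hZ w).1 hz).2 _ (inv_mem (hEN he))).symm
      have h5 : x * e⁻¹ * x⁻¹ = e⁻¹ * w := by rw [← hw]; group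
      have h6 : w ^ p = 1 := by
        have h7 : x * e⁻¹ ^ p * x⁻¹ = e⁻¹ ^ p * w ^ p := by
          rw [← conj_pow, h5, c2.symm.mul_pow]
        rw [((hZ _).1 (hEp _ (inv_mem he))).2 x hx, mul_inv_cancel_right] at h7
        exact (left_eq_mul.1 h7)
      have h7 : e * x ^ p * e⁻¹ = x ^ p := by
        rw [← conj_pow, show e * x * e⁻¹ = w * x by rw [← hw]; group, c1.mul_pow, h6, one_mul]
      rw [mul_assoc, mul_inv_eq_iff_eq_mul.1 h7, ← mul_assoc, h4.eq, mul_assoc]⟩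
    refine ⟨p, hp, h2, fun a ha => ?_⟩
    by_cases haC : a ∈ C
    · have h4 := (hk _).2 (h3 (a * y) (mul_mem ha hy) fun h4 => hyC ((mul_mem_cancel_left haC).1 h4))
      have h5 : Commute (f a) (f y) := by
        have := (hk _).2 (h2 a ha y hy)
        rwa [map_mul, map_mul, map_mul, map_inv, map_inv, mul_inv_eq_one,
          mul_inv_eq_iff_eq_mul] at this
      rw [map_pow, map_mul, h5.mul_pow, ← map_pow f y, (hk _).2 (h3 y hy hyC), mul_one] at h4
      rw [← hk, map_pow, h4]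
    · exact h3 a ha haC
  right
  have fpf : ∀ y ∈ N, y ∉ C → ∀ e ∈ E, e * y * e⁻¹ * y⁻¹ ∈ Z → e ∈ Z := fun y hy hyC =>
    (hD y hy hyC).resolve_right fun h1 => hc ⟨y, hy, hyC, h1⟩
  have nE : ∀ (W : Subgroup G), E ≤ W → W ≤ N → N ≤ normalizer (W : Set G) := fun W h1 h2 =>
    le_normalizer_of_cj_le fun g hg => cj_le_iff_forall.2 fun w hw => by
      have := mul_mem (h1 (B4 g hg w (h2 hw))) hw
      simpa using this
  have hCE : N ⊓ C ≤ E := fun c hc => by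
    obtain ⟨d, hd, hdy, e, he, rfl⟩ := B3 y₀ hy₀ hy₀C c hc.1
    have hdC : d ∈ C := (mul_mem_cancel_right (B2 he)).1 hc.2
    refine mul_mem (hZE ?_) he
    by_contra hdZ
    have hx : d * e₀ ∉ Z := fun h1 =>
      hdZ (B1 y₀ hy₀ hy₀C d ((mul_mem_cancel_right he₀).1 (hZE h1)) hdy)
    have hxN := mul_mem hd (hEN he₀)
    have h1 : ∀ n ∈ N, n ∈ centralizer ({d * e₀} : Set G) → n ∈ C := fun n hn h1 => by
      by_contra hnC
      refine he₀Z (fpf n hn hnC e₀ he₀ ?_)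
      have h2 := mem_centralizer_singleton_iff.1 h1
      have h3 : n * d * n⁻¹ * d⁻¹ ∈ Z := by
        obtain ⟨m, hm, h3, e', he', rfl⟩ := B3 y₀ hy₀ hy₀C n hn
        rw [id1' m e' d (mem_centralizer_iff.1 hdC e' he')]
        refine B1 y₀ hy₀ hy₀C _ (B4 m hm d hd) ?_
        have c1 : Commute m y₀ := h3
        have c2 : Commute d y₀ := hdy
        exact (((c1.mul_left c2).mul_left c1.inv_left).mul_left c2.inv_left).eq
      have h4 := hZn.conj_mem _ h3 d⁻¹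
      convert h4 using 1
      calc e₀ * n * e₀⁻¹ * n⁻¹ = d⁻¹ * (d * e₀ * n) * e₀⁻¹ * n⁻¹ := by group
        _ = d⁻¹ * n * d * n⁻¹ := by rw [← h2]; group
        _ = _ := by group
    have h2 : N ⊓ C ≤ centralizer ({d * e₀} : Set G) := by
      by_contra h2
      obtain ⟨m, hm, l, hl, h3⟩ := dec (h _ hxN hx) (nt (N ⊓ C) _) h2 y₀
      exact hy₀C (h3 ▸ mul_mem (h1 m ((mul_mem_cancel_right (mem_inf.1 hl).1).1 (h3 ▸ hy₀)) hm) hl.2)
    have h3 : N ⊓ C ≤ centralizer ({d} : Set G) := fun n hn => by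
      have h3 := mem_centralizer_singleton_iff.1 (h2 hn)
      rw [mul_assoc d, mem_centralizer_iff.1 hn.2 e₀ he₀, ← mul_assoc, ← mul_assoc] at h3
      exact mem_centralizer_singleton_iff.2 (mul_right_cancel h3)
    have h4 : (N ⊓ centralizer ({d} : Set G) : Subgroup G).Normal := normal_of (h d hd hdZ)
      (hNM d hd hdZ) (le_normalizer_inf (nt _ _) le_normalizer)
      (nE _ (fun e he => ⟨hEN he, h3 ⟨hEN he, B2 he⟩⟩) inf_le_left)
    refine hNM d hd hdZ fun n hn => ?_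
    obtain ⟨c, hc, w, hw, rfl⟩ := B5 _ h4 inf_le_left
      (fun h5 => hy₀C (h5 ⟨hy₀, mem_centralizer_singleton_iff.2 hdy.symm⟩)) n hn
    exact mul_mem (h3 hc) hw.2
  obtain ⟨y, r, hr, hy, hyE, hyr⟩ : ∃ (y : G) (r : ℕ), r.Prime ∧ y ∈ N ∧ y ∉ E ∧ y ^ r ∈ E := by
    have h1 : (y₀ : G ⧸ E) ≠ 1 := fun h1 => hy₀C (B2 ((QuotientGroup.eq_one_iff _).1 h1))
    obtain ⟨r, hr, k, hk⟩ := Nat.exists_prime_and_dvd (mt orderOf_eq_one_iff.1 h1)
    have h0 := orderOf_pos (y₀ : G ⧸ E)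
    refine ⟨y₀ ^ k, r, hr, pow_mem hy₀ k, fun h2 => ?_, ?_⟩
    · rw [← QuotientGroup.eq_one_iff, QuotientGroup.mk_pow, ← orderOf_dvd_iff_pow_eq_one] at h2
      have hk0 : 0 < k := Nat.pos_of_mul_pos_left (hk ▸ h0)
      have := Nat.le_of_dvd hk0 h2
      have := hr.one_lt
      nlinarith
    · rw [← QuotientGroup.eq_one_iff, ← pow_mul, QuotientGroup.mk_pow, mul_comm, ← hk,
        pow_orderOf_eq_one]
  have hyC : y ∉ C := fun h1 => hyE (hCE ⟨hy, h1⟩)
  have hyZ : y ∉ Z := fun h1 => hyE (hZE h1)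
  refine ⟨E, p, r, y, hp, hr, hE, hZE, hEN, hEZ, fun a ha b hb => mem_centralizer_iff.1 (B2 hb) a ha,
    hEp, hy, hyE, B1 y hy hyC _ hyr ((Commute.refl y).pow_left r).eq, fun n hn => ?_,
    fun n hn hnE => fpf n hn fun h1 => hnE (hCE ⟨hn, h1⟩)⟩
  have h1 : zpowers y ⊔ E ≤ N := sup_le (zpowers_le.2 hy) hEN
  have h4 : (zpowers y ⊔ E : Subgroup G).Normal := normal_of (h y hy hyZ) (hNM y hy hyZ)
    (le_normalizer_sup (le_normalizer_of_le_centralizer (centralizer_zpowers y).ge) (nt _ _))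
    (nE _ le_sup_right h1)
  obtain ⟨c, hc, w, hw, rfl⟩ := B5 _ h4 h1 (fun h5 => hyC (h5 (mem_sup_left (mem_zpowers y)))) n hn
  exact mul_mem (mem_sup_right (hCE hc)) hw

theorem frob {H : Type*} [Group H] [Finite H] {K : Subgroup H} [hK : K.Normal] {y : H} {r : ℕ}
    (hr : r.Prime) (h0 : K ≠ ⊥) (hy : y ∉ K) (hyr : y ^ r = 1) (ht : zpowers y ⊔ K = ⊤)
    (fpf : ∀ n, n ∉ K → ∀ e ∈ K, e * n = n * e → e = 1) :
    IsFrobeniusComplement (zpowers y) ∧ Nat.card (zpowers y) = r ∧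
      (K : Set H) = frobeniusKernel (zpowers y) ∧ IsComplement' K (zpowers y) := by
  haveI := Fact.mk hr
  have ho : orderOf y = r := orderOf_eq_prime hyr fun h => hy (h ▸ one_mem _)
  have hd : ∀ x ∈ zpowers y, x ∈ K → x = 1 := fun x hx hxK => by
    by_contra h1
    exact hy ((zpowers_le.2 hxK) ((zpowers_eq_of_mem hyr hx h1).ge (mem_zpowers y)))
  have hF : IsFrobeniusComplement (zpowers y) := by
    refine Frob.isFrobeniusComplement_iff.2 ⟨fun h => hy ?_, fun h => h0 (eq_bot_iff.2 fun x hx =>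
      hd x (h ▸ mem_top x) hx), fun g x hx h1 hg => ?_⟩
    · rw [zpowers_eq_bot.1 h]; exact one_mem _
    · obtain ⟨q, hq, k, hk, rfl⟩ := (mem_sup_of_normal_right).1 (ht.ge (mem_top g))
      have h2 : q⁻¹ * x * q ∈ zpowers y := mul_mem (mul_mem (inv_mem hq) hx) hq
      have h3 := hd _ (mul_mem (inv_mem h2) hg) (by
        have := mul_mem (hK.conj_mem _ (inv_mem hk) (q⁻¹ * x * q)⁻¹) hk
        convert this using 1; group)
      have h4 := fpf (q⁻¹ * x * q) (fun h4 => h1 (by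
        have := hd _ h2 h4
        calc x = q * (q⁻¹ * x * q) * q⁻¹ := by group
          _ = 1 := by rw [this]; simp)) k hk (by
        calc k * (q⁻¹ * x * q) = k * (q⁻¹ * x * q) * 1 := by group
          _ = _ := by rw [← h3]; group)
      rw [h4, mul_one]; exact hq
  have hc : IsComplement' K (zpowers y) := isComplement'_of_disjoint_and_mul_eq_univ
    (disjoint_iff_inf_le.2 fun x hx => hd x hx.2 hx.1) (by rw [← normal_mul, sup_comm, ht]; rfl)
  exact ⟨hF, by rw [Nat.card_zpowers, ho], (Gen2.frobeniusKernel_eq hc hF).symm, hc⟩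

end Cfsg.Agent.FG.MaxCent
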