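import Cfsg.Agent.FG.HallSym4
import Cfsg.Agent.Sig.FStar
import Cfsg.Agent.Char.Burnside
import Cfsg.Agent.Small.Part
import Mathlib.GroupTheory.SpecificGroups.Alternating.Simple

/-! Permutation groups with quasisimple generalized Fitting subgroup containing many short cycles. -/

set_option autoImplicit false

open Subgroup Equiv Equiv.Perm Finset Cfsg.Agent.Loc
open scoped commutatorElement

namespace Cfsg.Agent.FG.HS

variable {α : Type*} [Fintype α] [DecidableEq α] {H L : Subgroup (Perm α)}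

/-- `L` is a quasisimple self-centralizing normal subgroup of `H`. -/
structure QS (H L : Subgroup (Perm α)) : Prop where
  qs : IsQuasisimple L
  le : L ≤ H
  norm : H ≤ normalizer (L : Set (Perm α))
  cent : ∀ x ∈ H, x ∈ centralizer (L : Set (Perm α)) → x ∈ L

theorem qs_fstar (h : IsQuasisimple (generalizedFittingSubgroup H)) : QS H ((generalizedFittingSubgroup H).map H.subtype) :=
  ⟨Sig.qs_map_of_injective h H.subtype_injective, map_subtype_le _, normal_map_subtype inferInstance, fun x hx hc =>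
    ⟨⟨x, hx⟩, Sig.centralizer_fstar_le fun y hy => Subtype.ext (hc y ⟨y, hy, rfl⟩), rfl⟩⟩

theorem QS.le_or (h : QS H L) {U : Subgroup (Perm α)} (hU : U ≤ H) (hn : L ≤ normalizer (U : Set (Perm α))) :
    L ≤ U ∨ U ≤ centralizer (L : Set (Perm α)) := by
  rcases Sig.CompIn.commutator_eq_or h.qs (hU.trans h.norm) with e | e
  · refine Or.inl (e.symm.le.trans (Subgroup.commutator_le.2 fun x hx y hy => ?_))
    exact mul_mem (conj_mem_of_mem_normalizer (hn hx) hy) (inv_mem hy)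
  · rw [commutator_comm] at e
    exact Or.inr (commutator_eq_bot_iff_le_centralizer.1 e)

theorem QS.fix (h : QS H L) {a : α} (ha : ∀ l ∈ L, ∃ v ∈ H, v ∈ centralizer (L : Set (Perm α)) ∧ l a = v a) :
    ∀ l ∈ L, l a = a := by
  have key : ∀ g ∈ L, ∀ k ∈ L, g (k a) = k (g a) := fun g hg k hk => by
    obtain ⟨v, hv, hv', e⟩ := ha g hg
    obtain ⟨w, hw, hw', e'⟩ := ha k hk
    rw [e, e', ← Perm.mul_apply, hw' g hg, Perm.mul_apply, e, ← Perm.mul_apply k, hv' k hk, Perm.mul_apply, e',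
      ← Perm.mul_apply, ← Perm.mul_apply v, hw' v (h.cent v hv hv')]
  have : ⁅L, L⁆ ≤ MulAction.stabilizer (Perm α) a := Subgroup.commutator_le.2 fun g hg k hk => by
    show g (k (g⁻¹ (k⁻¹ a))) = a
    rw [key _ (inv_mem hg) _ (inv_mem hk)]; simp
  exact fun l hl => this ((Sig.qs_perfect h.qs).symm ▸ hl)

theorem QS.prime (h : QS H L) : ∃ r, r.Prime ∧ 5 ≤ r ∧ ∃ l ∈ L, orderOf l = r := by
  by_contra hc
  refine Sig.qs_not_isSolvable h.qs (Char.isSolvable_of_two_primes (p := 2) (q := 3) fun r hr hd => ?_)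
  by_contra h2
  rw [not_or] at h2
  haveI := Fact.mk hr
  obtain ⟨l, hl⟩ := exists_prime_orderOf_dvd_card' r hd
  exact hc ⟨r, hr, hr.five_le_of_ne_two_of_ne_three h2.1 h2.2, l, l.2, by rw [orderOf_coe, hl]⟩

theorem QS.not_three (h : QS H L) {a b c : α} (t : T H a b c) : swap a b * swap b c ∉ centralizer (L : Set (Perm α)) := by
  intro hc
  obtain ⟨h1, h2, h3, h4⟩ := t
  have e1 : (swap a b * swap b c) a = b := by simp [swap_apply_def, h1, h2]
  refine h1 (e1.symm.trans (h.fix (fun l hl => ?_) _ (h.cent _ h4 hc))).symm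
  have e2 := DFunLike.congr_fun (hc l hl) a
  rw [Perm.mul_apply, e1, Perm.mul_apply] at e2
  by_cases k1 : l a = a
  · exact ⟨1, one_mem _, one_mem _, k1⟩
  by_cases k2 : l a = b
  · exact ⟨_, h4, hc, k2.trans e1.symm⟩
  by_cases k3 : l a = c
  · exact ⟨_, inv_mem h4, inv_mem hc, by simp [k3, swap_apply_def, h1, h2, h3.symm]⟩
  · rw [Perm.mul_apply, swap_apply_of_ne_of_ne k2 k3, swap_apply_of_ne_of_ne k1 k2] at e2
    exact absurd (l.injective e2) h1.symm

/-- The alternating group on `Δ`. -/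
def AO (Δ : Finset α) : Subgroup (Perm α) := (alternatingGroup Δ).map ofSubtype

theorem mem_AO {Δ : Finset α} {x : Perm α} : x ∈ AO Δ ↔ x ∈ alternatingGroup α ∧ ∀ a, x a ≠ a → a ∈ Δ := by
  refine ⟨?_, fun ⟨hx, hs⟩ => ?_⟩
  · rintro ⟨y, hy, rfl⟩
    exact ⟨by rw [mem_alternatingGroup, sign_ofSubtype]; exact hy,
      fun a ha => by_contra fun h => ha (ofSubtype_apply_of_not_mem y h)⟩
  · have h1 : ∀ a, x a ∈ Δ ↔ a ∈ Δ := fun a => by
      by_cases e : x a = a
      · rw [e]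
      · exact iff_of_true (hs _ (x.injective.ne e)) (hs a e)
    exact ⟨x.subtypePerm h1, by
      rw [SetLike.mem_coe, mem_alternatingGroup]; convert (sign_subtypePerm x h1 hs).trans hx, ofSubtype_subtypePerm h1 hs⟩

/-- `AO Δ` is an alternating group. -/
noncomputable def AOequiv (Δ : Finset α) : AO Δ ≃* alternatingGroup (Fin Δ.card) :=
  ((alternatingGroup Δ).equivMapOfInjective _ Perm.ofSubtype_injective).symm.trans Δ.equivFin.altCongrHom

theorem QS.three (h : QS H L) {a b c : α} (t : T H a b c) :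
    ∃ Δ : Finset α, L = AO Δ ∧ (∀ g ∈ H, ∀ x ∈ Δ, g x ∈ Δ) ∧ ∀ x y z, T H x y z → x ∈ Δ := by
  let r : α → α → Prop := fun a b => a = b ∨ ∃ c, T H a b c
  have hr : Equivalence r := ⟨fun _ => Or.inl rfl, fun h => h.imp Eq.symm fun ⟨c, h⟩ => ⟨c, h.rev.rot⟩, by
    rintro x y z (rfl | ⟨u, h⟩) h'
    · exact h'
    · rcases h' with rfl | ⟨v, h'⟩
      · exact Or.inr ⟨u, h⟩
      · by_cases e : x = z
        · exact Or.inl e
        · exact Or.inr ⟨y, (h.rev.rot.l2 h' e).rot⟩⟩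
  have key : ∀ g ∈ H, ∀ a b, r a b → r (g a) (g b) := fun g hg a b h => h.imp (congrArg g) fun ⟨c, h⟩ => ⟨_, h.conj hg⟩
  let N : Subgroup (Perm α) :=
    { carrier := {g | g ∈ H ∧ ∀ x, r x (g x)}
      mul_mem' := fun ha hb => ⟨mul_mem ha.1 hb.1, fun x => hr.trans (hb.2 x) (ha.2 _)⟩
      one_mem' := ⟨one_mem _, hr.refl⟩
      inv_mem' := fun {g} ha => ⟨inv_mem ha.1, fun x => hr.symm (by simpa using ha.2 (g⁻¹ x))⟩ }
  have hLN : L ≤ N := by
    refine (h.le_or (U := N) (fun g hg => hg.1) fun l hl => mem_normalizer_fintype fun g hg =>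
      ⟨mul_mem (mul_mem (h.le hl) hg.1) (inv_mem (h.le hl)), fun x => ?_⟩).resolve_right fun hc =>
        h.not_three t (hc ⟨t.2.2.2, fun x => ?_⟩)
    · simpa using key l (h.le hl) _ _ (hg.2 (l⁻¹ x))
    · obtain ⟨h1, h2, h3, -⟩ := id t
      by_cases k1 : x = a
      · exact Or.inr ⟨c, by simpa [k1, swap_apply_def, h1, h2] using t⟩
      by_cases k2 : x = b
      · exact Or.inr ⟨a, by simpa [k2, swap_apply_def, h2.symm, h3.symm] using t.rot⟩
      by_cases k3 : x = c
      · exact Or.inr ⟨b, by simpa [k3, swap_apply_def, h1.symm] using t.rot.rot⟩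
      · exact Or.inl (by simp [swap_apply_def, k1, k2, k3])
  have hle : ∀ a, AO (cls r a) ≤ H := fun a x hx => alt_le (Δ := cls r a) (fun u hu v hv w hw h1 h2 h3 => by
    obtain ⟨x, hx⟩ := (hr.trans (hr.symm (mem_cls.1 hu)) (mem_cls.1 hv)).resolve_left h1
    obtain ⟨y, hy⟩ := (hr.trans (hr.symm (mem_cls.1 hu)) (mem_cls.1 hw)).resolve_left h2
    exact hx.l2 hy h3) (mem_AO.1 hx).1 (mem_AO.1 hx).2
  have hL : ∀ x y z, T H x y z → L ≤ AO (cls r x) := fun x y z t' => by
    refine (h.le_or (hle x) fun l hl => mem_normalizer_fintype fun g hg => mem_AO.2 ⟨?_, fun u hu => ?_⟩).resolve_right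
      fun hc => h.not_three t' (hc (mem_AO.2 ⟨by simp [t'.1, t'.2.2.1], fun u hu => mem_cls.2 ?_⟩))
    · exact (inferInstance : (alternatingGroup α).Normal).conj_mem _ (mem_AO.1 hg).1 l
    · have h1 := (mem_AO.1 hg).2 (l⁻¹ u) fun e => hu (by rw [Perm.mul_apply, Perm.mul_apply, e]; simp)
      exact mem_cls.2 (hr.trans (mem_cls.1 h1) (hr.symm ((hLN (inv_mem hl)).2 u)))
    · by_cases k1 : u = x
      · exact Or.inl k1.symm
      by_cases k2 : u = y
      · exact Or.inr ⟨z, k2 ▸ t'⟩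
      by_cases k3 : u = z
      · exact Or.inr ⟨y, k3 ▸ t'.rev.rot.rot⟩
      · exact absurd (by simp [swap_apply_def, k1, k2, k3]) hu
  obtain ⟨p, hp, hp5, l, hl, hlp⟩ := h.prime
  obtain ⟨u, hu⟩ : ∃ u, l u ≠ u := by
    by_contra hc
    push Not at hc
    rw [show l = 1 from Equiv.ext hc, orderOf_one] at hlp
    omega
  have hall : ∀ x y z, T H x y z → r a x := fun x y z t' =>
    hr.trans (mem_cls.1 ((mem_AO.1 (hL _ _ _ t hl)).2 u hu)) (hr.symm (mem_cls.1 ((mem_AO.1 (hL _ _ _ t' hl)).2 u hu)))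
  refine ⟨cls r a, le_antisymm (hL _ _ _ t) ?_, fun g hg x hx =>
    mem_cls.2 (hr.trans (hall _ _ _ (t.conj hg)) (key g hg _ _ (mem_cls.1 hx))), fun x y z t' => mem_cls.2 (hall _ _ _ t')⟩
  have h5 : 5 ≤ (cls r a).card := by
    have h1 := Subgroup.orderOf_dvd_natCard _ (hL _ _ _ t hl)
    rw [hlp, Nat.card_congr (AOequiv _).toEquiv] at h1
    simpa using hp5.trans (le_of_dvd_card hp h1)
  haveI : IsSimpleGroup (AO (cls r a)) :=
    haveI := alternatingGroup.isSimpleGroup (α := Fin (cls r a).card) (by simpa using h5)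
    (AOequiv _).isSimpleGroup
  haveI : (L.subgroupOf (AO (cls r a))).Normal := normal_subgroupOf_of_le_normalizer ((hle a).trans h.norm)
  rcases this.eq_bot_or_eq_top with e | e
  · have : (⟨l, hL _ _ _ t hl⟩ : AO (cls r a)) ∈ L.subgroupOf _ := hl
    rw [e, mem_bot] at this
    exact absurd (DFunLike.congr_fun (congrArg Subtype.val this) u) hu
  · exact subgroupOf_eq_top.1 e

theorem T_of_three {c : Perm α} (hc : c ∈ H) (h : c.IsThreeCycle) : ∃ a b d, T H a b d := by
  have h1 := cyc_of_isCycle h.isCycle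
  rw [h.orderOf] at h1
  obtain ⟨a, ha⟩ : c.support.Nonempty := card_pos.1 (by rw [h.card_support]; norm_num)
  exact ⟨a, T_of_cyc hc h1 ha⟩

/-- A near-perfect matching whose even products lie in `H`. -/
structure Pr (H : Subgroup (Perm α)) (π : Perm α) : Prop where
  sq : ∀ a, π (π a) = a
  fix : ∀ a b, π a = a → π b = b → a = b
  mem : ∀ a b, π a ≠ a → π b ≠ b → swap a (π a) * swap b (π b) ∈ H

theorem pack_pair (hM : ¬ 2 ∣ H.relIndex (alternatingGroup α)) : ∃ π, Pr H π ∧ (sign π = 1 → π ∈ H) := by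
  obtain ⟨e, he⟩ := pack (Multiplicative (ZMod 2)) (IsPGroup.of_card (p := 2) (n := 1) (by simp)) hM
  let u : Multiplicative (ZMod 2) := Multiplicative.ofAdd 1
  have hu : ∀ x, u * (u * x) = x := by decide
  have hu' : ∀ x y, y ≠ x → y = u * x := by decide
  have key : ∀ i x, e.permCongr (tr _ _ (Pi.mulSingle i u)) = swap (e (.inl (i, x))) (e (.inl (i, u * x))) := by
    intro i x
    ext a
    obtain ⟨⟨j, y⟩ | j, rfl⟩ := e.surjective a
    · by_cases hj : j = i
      · subst hj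
        by_cases hy : y = x
        · simp [tr, hy]
        · simp [tr, hu' x y hy, hu]
      · rw [swap_apply_of_ne_of_ne (by simp [hj]) (by simp [hj])]
        simp [tr, Pi.mulSingle_eq_of_ne hj]
    · rw [swap_apply_of_ne_of_ne (by simp) (by simp)]
      simp [tr]
  refine ⟨e.permCongr (tr _ _ fun _ => u), ⟨fun a => ?_, fun a b ha hb => ?_, fun a b ha hb => ?_⟩, he _⟩
  · obtain ⟨⟨j, y⟩ | j, rfl⟩ := e.surjective a <;> simp [tr, hu]
  · have h1 : u ≠ 1 := by decide
    obtain ⟨⟨j, y⟩ | j, rfl⟩ := e.surjective a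
    · simp [tr, h1] at ha
    obtain ⟨⟨k, y⟩ | k, rfl⟩ := e.surjective b
    · simp [tr, h1] at hb
    have h2 := j.2
    have h3 := k.2
    simp only [Fintype.card_multiplicative, ZMod.card] at h2 h3
    rw [show j = k from Fin.ext (by omega)]
  · have hs : swap a (e.permCongr (tr _ _ fun _ => u) a) * swap b (e.permCongr (tr _ _ fun _ => u) b) ∈ alternatingGroup α := by
      rw [mem_alternatingGroup, map_mul, sign_swap ha.symm, sign_swap hb.symm]; rfl
    obtain ⟨⟨j, y⟩ | j, rfl⟩ := e.surjective a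
    swap
    · simp [tr] at ha
    obtain ⟨⟨k, z⟩ | k, rfl⟩ := e.surjective b
    swap
    · simp [tr] at hb
    have h1 : ∀ j y, e.permCongr (tr _ _ fun _ => u) (e (.inl (j, y))) = e (.inl (j, u * y)) := by simp [tr]
    rw [h1, h1, ← key, ← key, ← permCongr_mul, ← map_mul] at hs ⊢
    exact he _ hs

theorem Pr.conj {π g : Perm α} (h : Pr H π) (hg : g ∈ H) : Pr H (g * π * g⁻¹) where
  sq a := by simp [h.sq]
  fix a b ha hb := g⁻¹.injective (h.fix _ _ (by rw [Perm.eq_inv_iff_eq]; exact ha) (by rw [Perm.eq_inv_iff_eq]; exact hb))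
  mem a b ha hb := by
    obtain ⟨a, rfl⟩ := g.surjective a
    obtain ⟨b, rfl⟩ := g.surjective b
    simp only [Perm.mul_apply, Perm.coe_inv, symm_apply_apply, ne_eq, EmbeddingLike.apply_eq_iff_eq] at ha hb ⊢
    have := mul_mem (mul_mem hg (h.mem a b ha hb)) (inv_mem hg)
    rw [swap_apply_apply, swap_apply_apply]
    convert this using 1
    group

theorem Pr.avoid {π : Perm α} (h : Pr H π) (l : List α) (hl : l.length + 1 < Fintype.card α) : ∃ d, d ∉ l ∧ π d ≠ d := by
  by_contra hc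
  push Not at hc
  have h1 : (l.toFinsetᶜ).card ≤ 1 := card_le_one.2 fun a ha b hb =>
    h.fix a b (hc a (by simpa using ha)) (hc b (by simpa using hb))
  have h2 := l.toFinset_card_le
  rw [card_compl] at h1
  omega

theorem Pr.three {π ρ : Perm α} (h : Pr H π) (h' : Pr H ρ) {a c d : α} (h1 : π a ≠ a) (h2 : ρ a ≠ a) (h3 : π a ≠ ρ a)
    (h4 : ρ c ≠ c) (h5 : c ∉ [a, π a]) (h6 : ρ c ∉ [a, π a]) (h7 : π d ≠ d) (h8 : d ∉ [a, ρ a, c, ρ c])
    (h9 : π d ∉ [a, ρ a, c, ρ c]) : ∃ t ∈ H, IsThreeCycle t := by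
  simp only [List.mem_cons, List.not_mem_nil, or_false, not_or] at h5 h6 h8 h9
  refine Small.three_of (h'.mem a c h2 h4) (h.mem a d h1 h7) h1.symm ?_ ?_ ?_ ?_
  · simp [swap_apply_def, Ne.symm h5.1, Ne.symm h6.1, h2]
  · simp [swap_apply_def, Ne.symm h5.2, Ne.symm h6.2, h1, h3]
  · simp [swap_apply_def, h8]
  · simp [swap_apply_def, h9]

theorem Pr.eq_iff {π : Perm α} (h : Pr H π) {a b : α} : π a = b ↔ a = π b :=
  ⟨fun e => by rw [← e, h.sq], fun e => by rw [e, h.sq]⟩

theorem exists_avoid (l : List α) (hl : l.length < Fintype.card α) : ∃ d, d ∉ l := by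
  obtain ⟨d, -, hd⟩ := exists_not_mem_of_card_lt (R := l.toFinset) (V := univ) (l.toFinset_card_le.trans_lt hl)
  exact ⟨d, by simpa using hd⟩

theorem Pr.fix_imp {π ρ : Perm α} (h : Pr H π) (h' : Pr H ρ) (hn : 8 ≤ Fintype.card α) (h3 : ¬ ∃ t ∈ H, IsThreeCycle t)
    {b : α} (hb : π b = b) : ρ b = b := by
  by_contra hne
  have h1 : π (ρ b) ≠ ρ b := fun e => hne (h.fix _ _ e hb)
  have h2 : π (ρ b) ≠ b := fun e => hne (by rw [← h.sq (ρ b), e, hb])
  obtain ⟨c, hc, hc'⟩ := h'.avoid [ρ b, π (ρ b), b, ρ (π (ρ b))] (by simp; omega)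
  obtain ⟨d, hd⟩ := exists_avoid [ρ b, π (ρ b), b, c, π c, ρ c, π (ρ c)] (by simp; omega)
  simp only [List.mem_cons, List.not_mem_nil, or_false, not_or] at hc hd
  refine h3 (h.three h' (a := ρ b) (c := c) (d := d) h1 (by rw [h'.sq]; exact Ne.symm hne) (by rwa [h'.sq]) hc'
    (by simp [hc]) (by simp [hc, h'.eq_iff (a := c), h'.sq]) (fun e => hd.2.2.1 (h.fix _ _ e hb)) (by simp [hd, h'.sq])
    (by simp [hd, h'.sq, h.eq_iff (a := d), hb]))

theorem Pr.comm {π ρ : Perm α} (h : Pr H π) (h' : Pr H ρ) (hn : 8 ≤ Fintype.card α) (h3 : ¬ ∃ t ∈ H, IsThreeCycle t) :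
    π * ρ = ρ * π := by
  ext a
  simp only [Perm.mul_apply]
  by_cases h1 : π a = a
  · rw [h.fix_imp h' hn h3 h1, h1, h.fix_imp h' hn h3 h1]
  by_cases h4 : π a = ρ a
  · rw [← h4, h.sq, h4, h'.sq]
  have h2 : ρ a ≠ a := fun e => h1 (h'.fix_imp h hn h3 e)
  have h5 : π (ρ a) ≠ ρ a := fun e => h2 (by simpa using h.fix_imp h' hn h3 e)
  have h6 : ρ (π (ρ a)) ≠ π (ρ a) := fun e => h5 (by simpa using h'.fix_imp h hn h3 e)
  by_contra hne
  obtain ⟨d, hd, hd'⟩ := h.avoid [a, π a, ρ a, π (ρ a), ρ (π (ρ a)), π (ρ (π (ρ a)))] (by simp; omega)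
  simp only [List.mem_cons, List.not_mem_nil, or_false, not_or] at hd
  refine h3 (h.three h' (a := a) (c := π (ρ a)) (d := d) h1 h2 h4 h6 ?_ ?_ hd' (by simp [hd])
    (by simp [hd, h.sq, h.eq_iff (a := d)]))
  · simp [h.eq_iff (a := ρ a), h2, Ne.symm h4, h.sq]
  · simp [h'.eq_iff (a := π (ρ a)), h5, hne]

theorem Pr.eq {π ρ : Perm α} (h : Pr H π) (h' : Pr H ρ) (hn : 10 ≤ Fintype.card α) (h3 : ¬ ∃ t ∈ H, IsThreeCycle t) :
    π = ρ := by
  ext a
  by_contra h4
  have h1 : π a ≠ a := fun e => h4 (e.trans (h.fix_imp h' (by omega) h3 e).symm)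
  have h2 : ρ a ≠ a := fun e => h1 (h'.fix_imp h (by omega) h3 e)
  obtain ⟨c, hc, hc'⟩ := h'.avoid [a, π a, ρ a, ρ (π a)] (by simp; omega)
  obtain ⟨d, hd, hd'⟩ := h.avoid [a, π a, ρ a, π (ρ a), c, π c, ρ c, π (ρ c)] (by simp; omega)
  simp only [List.mem_cons, List.not_mem_nil, or_false, not_or] at hc hd
  exact h3 (h.three h' (a := a) (c := c) (d := d) h1 h2 h4 hc' (by simp [hc]) (by simp [hc, h'.eq_iff (a := c)]) hd'
    (by simp [hd]) (by simp [hd, h.eq_iff (a := d)]))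

theorem QS.cent_of_comm (h : QS H L) {S : Set (Perm α)} (h1 : ∀ x ∈ S, x ∈ H) (h2 : ∀ l ∈ L, ∀ x ∈ S, l * x * l⁻¹ ∈ S)
    (h3 : ∀ x ∈ S, ∀ y ∈ S, x * y = y * x) : ∀ x ∈ S, ∀ l ∈ L, l * x = x * l := by
  rcases h.le_or (U := Subgroup.closure S) ((Subgroup.closure_le _).2 h1) (le_normalizer_of_cj_le fun l hl => by
    rw [cj_closure]
    exact Subgroup.closure_mono (by rintro _ ⟨x, hx, rfl⟩; exact h2 l hl x hx)) with e | e
  · refine absurd (e.trans ((Subgroup.closure_le _).2 fun x hx => centralizer_anti e ?_)) (Sig.qs_not_le_centralizer h.qs)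
    rw [centralizer_closure]
    exact fun y hy => h3 y hy x hx
  · exact fun x hx l hl => e (Subgroup.subset_closure hx) l hl

theorem QS.exists_three (h : QS H L) (hn : 8 ≤ Fintype.card α) (hM : ¬ 2 ∣ H.relIndex (alternatingGroup α)) :
    ∃ t ∈ H, IsThreeCycle t := by
  by_contra h3
  obtain ⟨π, hπ, hs⟩ := pack_pair hM
  obtain ⟨p, hp, hp5, l, hl, hlp⟩ := h.prime
  by_cases h10 : 10 ≤ Fintype.card α
  · have h1 : ∀ g ∈ H, ∀ a, g (π a) = π (g a) := fun g hg a => by
      simpa using (DFunLike.congr_fun (hπ.eq (hπ.conj hg) h10 h3) (g a)).symm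
    have h2 := h.cent_of_comm (S := {x | ∃ a b, π a ≠ a ∧ π b ≠ b ∧ x = swap a (π a) * swap b (π b)})
      (by rintro _ ⟨a, b, ha, hb, rfl⟩; exact hπ.mem a b ha hb)
      (by
        rintro l hl _ ⟨a, b, ha, hb, rfl⟩
        refine ⟨l a, l b, by simpa [← h1 l (h.le hl)] using ha, by simpa [← h1 l (h.le hl)] using hb, ?_⟩
        rw [← h1 l (h.le hl), ← h1 l (h.le hl), swap_apply_apply, swap_apply_apply]
        group)
      (by
        have key : ∀ a b, Commute (swap a (π a)) (swap b (π b)) := fun a b => by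
          have : ∀ x, swap a (π a) (π x) = π (swap a (π a) x) := fun x => by
            rw [← π.injective.swap_apply, hπ.sq, swap_comm]
          by_cases e : b = a ∨ b = π a
          · rcases e with rfl | rfl
            · exact Commute.refl _
            · rw [hπ.sq, swap_comm]
          · rw [not_or] at e
            rw [commute_iff_eq, mul_swap_eq_swap_mul, this, swap_apply_of_ne_of_ne e.1 e.2]
        rintro _ ⟨a, b, -, -, rfl⟩ _ ⟨c, d, -, -, rfl⟩
        exact ((key a c).mul_right (key a d)).mul_left ((key b c).mul_right (key b d)))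
    have h4 : l ^ 2 = 1 := by
      ext a
      rw [pow_two, Perm.mul_apply, Perm.one_apply]
      by_cases ha : π a = a
      · have : l a = a := hπ.fix _ _ (by rw [← h1 l (h.le hl), ha]) ha
        rw [this, this]
      obtain ⟨b, hb, hb'⟩ := hπ.avoid [a, π a, l a, π (l a)] (by simp; omega)
      simp only [List.mem_cons, List.not_mem_nil, or_false, not_or] at hb
      have h5 := DFunLike.congr_fun (h2 _ ⟨a, b, ha, hb', rfl⟩ l hl) a
      rw [Perm.mul_apply, Perm.mul_apply, Perm.mul_apply, Perm.mul_apply,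
        swap_apply_of_ne_of_ne (x := a) (Ne.symm hb.1) (fun e => hb.2.1 (hπ.eq_iff.1 e.symm)), swap_apply_left,
        swap_apply_of_ne_of_ne (x := l a) (Ne.symm hb.2.2.1) (fun e => hb.2.2.2 (hπ.eq_iff.1 e.symm))] at h5
      by_cases k1 : l a = a
      · rw [k1, k1]
      by_cases k2 : l a = π a
      · rw [k2, h1 l (h.le hl), k2, hπ.sq]
      · rw [swap_apply_of_ne_of_ne k1 k2] at h5
        exact absurd (l.injective h5) ha
    have := Nat.le_of_dvd two_pos (hlp ▸ orderOf_dvd_of_pow_eq_one h4)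
    omega
  · have hπH : π ∈ H := by
      refine hs ?_
      have h4 : π ^ 2 = 1 := by ext a; simp [pow_two, hπ.sq]
      have h5 : Fintype.card (Function.fixedPoints π) ≤ 1 := Fintype.card_le_one_iff.2 fun a b => Subtype.ext (hπ.fix _ _ a.2 b.2)
      have h6 := card_fixedPoints_modEq (f := (⇑π : Function.End α)) (p := 2) (n := 1) (funext hπ.sq)
      rw [sign_of_pow_two_eq_one h4, show (Fintype.card α - Fintype.card (Function.fixedPoints π)) / 2 = 4 by
        unfold Nat.ModEq at h6; omega]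
      rfl
    have h2 := h.cent_of_comm (S := {x | ∃ g ∈ H, x = g * π * g⁻¹})
      (by rintro _ ⟨g, hg, rfl⟩; exact mul_mem (mul_mem hg hπH) (inv_mem hg))
      (by rintro l hl _ ⟨g, hg, rfl⟩; exact ⟨l * g, mul_mem (h.le hl) hg, by group⟩)
      (by rintro _ ⟨g, hg, rfl⟩ _ ⟨k, hk, rfl⟩; exact (hπ.conj hg).comm (hπ.conj hk) hn h3) π ⟨1, one_mem _, by simp⟩ l hl
    have hc := cyc_of_isCycle (isCycle_of_prime_order' (σ := l) (hlp ▸ hp) (by omega))
    have h4 : ∀ a ∈ l.support, π a = a := fun a ha => by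
      have h5 : π a ∈ l.support := mem_support.2 fun e => mem_support.1 ha (π.injective (by
        rw [← Perm.mul_apply, ← h2, Perm.mul_apply, e]))
      obtain ⟨k, hk⟩ := hc.tr a ha _ h5
      have h6 : ((l ^ k) ^ 2) a = a := by
        have : l ^ k * π = π * l ^ k := (Commute.pow_left h2 k).eq
        rw [pow_two, Perm.mul_apply, hk, ← Perm.mul_apply, this, Perm.mul_apply, hk, hπ.sq]
      obtain ⟨m, hm⟩ := exists_pow_eq_self_of_coprime (x := l ^ k) (n := 2) (Nat.Coprime.coprime_dvd_right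
        (orderOf_pow_dvd k) (hlp ▸ (Nat.coprime_primes Nat.prime_two hp).2 (by omega)))
      rw [← hk, ← hm]
      exact pow_apply_eq_self_of_apply_eq_self h6 m
    have := card_le_one.2 fun a ha b hb => hπ.fix a b (h4 a ha) (h4 b hb)
    rw [hc.card] at this
    omega

end Cfsg.Agent.FG.HS
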